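import Cfsg.Agent.H680.IF.EngA
import Cfsg.Agent.S0199
import Cfsg.Agent.S0215

/-!
# S5719: the rank one case (helper838)

`rk_one` : if no two distinct involutions of `A` commute, then `O_p(A) ≠ 1` and `A` is its normaliser (`p` odd), under a
hypothesis on a set of `p`-elements generating a subgroup which contains `t`.
-/

set_option autoImplicit false
set_option linter.unusedSectionVars false

namespace Cfsg.Agent.H838.IF

open Subgroup Cfsg.Agent.H209.Fxy

/-- the largest normal `p`-subgroup -/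
theorem exists_core {T : Type*} [Group T] [Finite T] (p : ℕ) [Fact p.Prime] (A : Subgroup T) :
    ∃ K : Subgroup T, K ≤ A ∧ IsPGroup p K ∧ (∀ a ∈ A, ∀ k ∈ K, a * k * a⁻¹ ∈ K) ∧
      ∀ K' : Subgroup T, K' ≤ A → IsPGroup p K' → (∀ a ∈ A, ∀ k ∈ K', a * k * a⁻¹ ∈ K') → K' ≤ K := by
  classical
  let 𝒮 : Set (Subgroup T) := {K | K ≤ A ∧ IsPGroup p K ∧ ∀ a ∈ A, ∀ k ∈ K, a * k * a⁻¹ ∈ K}
  have hfin : 𝒮.Finite := Set.toFinite _
  have hne : 𝒮.Nonempty := ⟨⊥, bot_le, IsPGroup.of_bot, fun a _ k hk => by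
    rw [mem_bot] at hk ⊢
    rw [hk, mul_one, mul_inv_cancel]⟩
  obtain ⟨K, hK, hmax⟩ := Set.exists_max_image 𝒮 (fun K => Nat.card K) hfin hne
  refine ⟨K, hK.1, hK.2.1, hK.2.2, fun K' h1 h2 h3 => ?_⟩
  have hle : K' ≤ normalizer (K : Set T) := by
    intro x hx
    have hx' := h1 hx
    rw [mem_normalizer_iff]
    intro y
    constructor
    · exact hK.2.2 x hx' y
    · intro hy
      have h4 := hK.2.2 x⁻¹ (A.inv_mem hx') _ hy
      rwa [inv_inv, show x⁻¹ * (x * y * x⁻¹) * x = y by group] at h4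
  have hsup : IsPGroup p (K ⊔ K' : Subgroup T) := IsPGroup.to_sup_of_normal_left' hK.2.1 h2 hle
  have hmem : K ⊔ K' ∈ 𝒮 := by
    refine ⟨sup_le hK.1 h1, hsup, ?_⟩
    intro a ha k hk
    have h5 : (K ⊔ K').map (MulAut.conj a).toMonoidHom ≤ K ⊔ K' := by
      rw [Subgroup.map_sup]
      apply sup_le
      · rintro _ ⟨x, hx, rfl⟩
        exact (le_sup_left : K ≤ K ⊔ K') (hK.2.2 a ha x hx)
      · rintro _ ⟨x, hx, rfl⟩
        exact (le_sup_right : K' ≤ K ⊔ K') (h3 a ha x hx)
    exact h5 ⟨k, hk, rfl⟩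
  have h6 := hmax _ hmem
  have h7 : K = K ⊔ K' := Subgroup.eq_of_le_of_card_ge le_sup_left h6
  rw [h7]
  exact le_sup_right

/-- **The rank one case.** -/
theorem rk_one {T : Type*} [Group T] [Finite T] [IsSimpleGroup T] {A : Subgroup T} {Γ : Subgroup (MulAut T)}
    (h : IF A Γ) {p : ℕ} [Fact p.Prime] (hp : p ≠ 2) {t : T} (ht : t ∈ A) (ht2 : orderOf t = 2)
    (hno : ∀ s ∈ A, ∀ t ∈ A, orderOf s = 2 → orderOf t = 2 → s * t = t * s → s = t)
    (hex : ∃ s : T, s ≠ t ∧ orderOf s = 2 ∧ s * t = t * s) {S : Set T} (hSA : S ⊆ A)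
    (hSp : ∀ u ∈ S, ∃ k, u ^ (p ^ k) = 1) (htS : t ∈ closure S)
    (hS : ∀ u ∈ S, ∀ a ∈ A, Odd (Nat.card (closure ({u, a * u * a⁻¹} : Set T))) →
      IsPGroup p (closure ({u, a * u * a⁻¹} : Set T))) :
    ∃ K : Subgroup T, K ≤ A ∧ K ≠ ⊥ ∧ IsPGroup p K ∧ (∀ a ∈ A, ∀ k ∈ K, a * k * a⁻¹ ∈ K) ∧
      (∀ x : T, (∀ k ∈ K, x * k * x⁻¹ ∈ K) → x ∈ A) ∧
      ∀ K' : Subgroup T, K' ≤ A → IsPGroup p K' → (∀ a ∈ A, ∀ k ∈ K', a * k * a⁻¹ ∈ K') → K' ≤ K := by
  classical
  have hpodd : Odd p := (Fact.out : p.Prime).odd_of_ne_two hp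
  obtain ⟨K, hKA, hKp, hKn, hKmax⟩ := exists_core p A
  -- `K` is invariant
  have hKinv : ∀ σ ∈ Γ, ∀ k ∈ K, σ k ∈ K := by
    intro σ hσ k hk
    have h1 : K.map σ.toMonoidHom ≤ K := by
      apply hKmax
      · rintro _ ⟨x, hx, rfl⟩
        exact (h.inv σ hσ x).2 (hKA hx)
      · exact hKp.map _
      · rintro a ha _ ⟨x, hx, rfl⟩
        have h2 : σ⁻¹ a ∈ A := (h.inv _ (Γ.inv_mem hσ) a).2 ha
        refine ⟨σ⁻¹ a * x * (σ⁻¹ a)⁻¹, hKn _ h2 x hx, ?_⟩
        change σ (σ⁻¹ a * x * (σ⁻¹ a)⁻¹) = a * σ x * a⁻¹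
        rw [map_mul, map_mul, map_inv, MulAut.apply_inv_self]
    exact h1 ⟨k, hk, rfl⟩
  by_cases hK1 : K = ⊥
  · exfalso
    -- Z*
    have ht2' : t * t = 1 := by rw [← pow_two, ← ht2, pow_orderOf_eq_one]
    let tA : A := ⟨t, ht⟩
    have htA2 : orderOf tA = 2 := by rw [← Subgroup.orderOf_coe]; exact ht2
    have hz : IsPGroup 2 (zpowers tA) := by
      apply IsPGroup.of_card (n := 1)
      rw [Nat.card_zpowers, htA2, pow_one]
    obtain ⟨P, hP⟩ := hz.exists_le_sylow
    have htP : tA ∈ (P : Subgroup A) := hP (mem_zpowers tA)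
    have hPnt : Nontrivial (P : Subgroup A) := ⟨⟨⟨tA, htP⟩, 1, fun h1 => by
      have h2 : tA = 1 := congrArg Subtype.val h1
      rw [h2, orderOf_one] at htA2
      omega⟩⟩
    have hcn : Nontrivial (center (P : Subgroup A)) := P.isPGroup'.center_nontrivial
    have huniq : ∀ s : A, s ∈ (P : Subgroup A) → orderOf s = 2 → s = tA := by
      have hc2 : 2 ∣ Nat.card (center (P : Subgroup A)) := by
        have h3 : IsPGroup 2 (center (P : Subgroup A)) := P.isPGroup'.to_subgroup _
        obtain ⟨n, hn⟩ := IsPGroup.iff_card.1 h3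
        have h4 : 1 < Nat.card (center (P : Subgroup A)) := Finite.one_lt_card
        rcases Nat.eq_zero_or_pos n with rfl | h5
        · rw [hn, pow_zero] at h4; omega
        · rw [hn]; exact dvd_pow_self 2 h5.ne'
      obtain ⟨z, hz2⟩ := exists_prime_orderOf_dvd_card' 2 hc2
      have hz3 : orderOf (z.1.1 : A) = 2 := by
        rw [Subgroup.orderOf_coe, Subgroup.orderOf_coe]; exact hz2
      have key : ∀ s : A, s ∈ (P : Subgroup A) → orderOf s = 2 → s = z.1.1 := by
        intro s hs hs2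
        have hcomm : s * z.1.1 = z.1.1 * s := by
          have h6 := mem_center_iff.1 z.2 ⟨s, hs⟩
          exact congrArg Subtype.val h6
        have h7 := hno s s.2 z.1.1 (z.1.1).2 (by rw [Subgroup.orderOf_coe]; exact hs2)
          (by rw [Subgroup.orderOf_coe]; exact hz3) (congrArg Subtype.val hcomm)
        exact Subtype.ext h7
      intro s hs hs2
      rw [key s hs hs2, key tA htP htA2]
    obtain ⟨N, hN, hNodd, hNc⟩ := Cfsg.Agent.S0215.result P tA htA2 htP (fun g hg => by
      apply huniq _ hg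
      have h1 : g * tA * g⁻¹ = MulAut.conj g tA := rfl
      rw [h1, MulEquiv.orderOf_eq]
      exact htA2)
    -- the elements of `S` centralise `N`
    obtain ⟨K0, hK0N, hK0p, hK0n, hK0max⟩ := exists_core p N
    have hK0 : K0 = ⊥ := by
      have h1 : K0.map A.subtype ≤ K := by
        apply hKmax
        · rintro _ ⟨x, -, rfl⟩
          exact x.2
        · exact hK0p.map _
        · rintro a ha _ ⟨x, hx, rfl⟩
          have h2 : K0.map (MulAut.conj (⟨a, ha⟩ : A)).toMonoidHom ≤ K0 := by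
            apply hK0max
            · rintro _ ⟨y, hy, rfl⟩
              exact hN.conj_mem y (hK0N hy) _
            · exact hK0p.map _
            · rintro n hn _ ⟨y, hy, rfl⟩
              have h3 : (⟨a, ha⟩ : A)⁻¹ * n * (⟨a, ha⟩ : A) ∈ N := by
                have := hN.conj_mem n hn (⟨a, ha⟩ : A)⁻¹
                rwa [inv_inv] at this
              refine ⟨((⟨a, ha⟩ : A)⁻¹ * n * ⟨a, ha⟩) * y * ((⟨a, ha⟩ : A)⁻¹ * n * ⟨a, ha⟩)⁻¹, hK0n _ h3 y hy, ?_⟩
              change (⟨a, ha⟩ : A) * (((⟨a, ha⟩ : A)⁻¹ * n * ⟨a, ha⟩) * y * ((⟨a, ha⟩ : A)⁻¹ * n * ⟨a, ha⟩)⁻¹) *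
                (⟨a, ha⟩ : A)⁻¹ = n * ((⟨a, ha⟩ : A) * y * (⟨a, ha⟩ : A)⁻¹) * n⁻¹
              group
          refine ⟨⟨a, ha⟩ * x * (⟨a, ha⟩ : A)⁻¹, h2 ⟨x, hx, rfl⟩, rfl⟩
      rw [hK1, le_bot_iff] at h1
      exact (Subgroup.map_eq_bot_iff_of_injective _ A.subtype_injective).1 h1
    have hcent : ∀ u (hu : u ∈ S), ∀ n ∈ N, (⟨u, hSA hu⟩ : A) * n = n * ⟨u, hSA hu⟩ := by
      intro u hu n hn
      set uA : A := ⟨u, hSA hu⟩ with huA
      obtain ⟨k, hk⟩ := hSp u hu
      have hX : IsPGroup p (zpowers uA) := by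
        rw [IsPGroup.iff_card]
        rw [Nat.card_zpowers]
        have h1 : orderOf uA ∣ p ^ k := by
          rw [orderOf_dvd_iff_pow_eq_one]
          exact Subtype.ext hk
        obtain ⟨m, -, hm⟩ := (Nat.dvd_prime_pow Fact.out).1 h1
        exact ⟨m, hm⟩
      let G : Subgroup A := N ⊔ zpowers uA
      have hmemG : ∀ g ∈ G, ∃ n ∈ N, ∃ v ∈ zpowers uA, g = n * v := by
        intro g hg
        obtain ⟨n, hn, v, hv, h1⟩ := Subgroup.mem_sup_of_normal_left.1 hg
        exact ⟨n, hn, v, hv, h1.symm⟩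
      have hcardG : Odd (Nat.card G) := by
        have h1 : Nat.card G ∣ Nat.card N * Nat.card (zpowers uA) := by
          have h2 := Subgroup.relIndex_mul_relIndex ⊥ N G bot_le le_sup_left
          rw [Subgroup.relIndex_bot_left, Subgroup.relIndex_bot_left] at h2
          have h3 : N.relIndex G = N.relIndex (zpowers uA) := by
            change N.relIndex (N ⊔ zpowers uA) = _
            rw [sup_comm, Subgroup.relIndex_sup_right]
          rw [← h2, h3]
          exact mul_dvd_mul_left _ (Subgroup.relIndex_dvd_card N (zpowers uA))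
        have h3 : Odd (Nat.card (zpowers uA)) := by
          obtain ⟨m, hm⟩ := IsPGroup.iff_card.1 hX
          rw [hm]
          exact hpodd.pow
        exact Odd.of_dvd_nat (hNodd.mul h3) h1
      -- `⟨u, u^n⟩` is a `p`-group
      have hpair : ∀ n ∈ N, IsPGroup p (closure ({(uA : T), n * uA * (n : T)⁻¹} : Set T)) := by
        intro n hn
        apply hS u hu n n.2
        have h1 : closure ({u, (n : T) * u * (n : T)⁻¹} : Set T) ≤ G.map A.subtype := by
          rw [closure_le]
          rintro x (rfl | rfl)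
          · exact ⟨uA, (le_sup_right : zpowers uA ≤ G) (mem_zpowers uA), rfl⟩
          · refine ⟨n * uA * n⁻¹, ?_, rfl⟩
            have h2 : n ∈ G := (le_sup_left : N ≤ G) hn
            exact G.mul_mem (G.mul_mem h2 ((le_sup_right : zpowers uA ≤ G) (mem_zpowers uA))) (G.inv_mem h2)
        have h3 : Nat.card (G.map A.subtype) = Nat.card G := Nat.card_congr (G.equivMapOfInjective _ A.subtype_injective).symm.toEquiv
        have h4 := Subgroup.card_dvd_of_le h1
        rw [h3] at h4
        exact Odd.of_dvd_nat hcardG h4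
      let uG : G := ⟨uA, (le_sup_right : zpowers uA ≤ G) (mem_zpowers uA)⟩
      have hXG : IsPGroup p (zpowers uG) := by
        rw [IsPGroup.iff_card, Nat.card_zpowers]
        obtain ⟨m, hm⟩ := IsPGroup.iff_card.1 hX
        rw [Nat.card_zpowers] at hm
        refine ⟨m, ?_⟩
        rw [← hm, ← Subgroup.orderOf_coe]
      obtain ⟨M, hM, hMp, hMu⟩ := Cfsg.Agent.S0199.result (zpowers uG) hXG (by
        intro g
        obtain ⟨n, hn, v, hv, hg⟩ := hmemG g g.2
        have hcl : IsPGroup p (closure ({uG, g * uG * g⁻¹} : Set G)) := by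
          have hgu : ((g * uG * g⁻¹ : G) : A) = n * uA * n⁻¹ := by
            change (g : A) * uA * (g : A)⁻¹ = n * uA * n⁻¹
            obtain ⟨i, hi⟩ := mem_zpowers_iff.1 hv
            rw [hg, ← hi, mul_inv_rev]
            have h5 : uA ^ i * uA * (uA ^ i)⁻¹ = uA := by group
            calc n * uA ^ i * uA * ((uA ^ i)⁻¹ * n⁻¹) = n * (uA ^ i * uA * (uA ^ i)⁻¹) * n⁻¹ := by group
              _ = n * uA * n⁻¹ := by rw [h5]
          have h6 := hpair n hn
          have hinj : Function.Injective (A.subtype.comp G.subtype) := A.subtype_injective.comp G.subtype_injective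
          have h7 : (closure ({uG, g * uG * g⁻¹} : Set G)).map (A.subtype.comp G.subtype) =
              closure ({(uA : T), n * uA * (n : T)⁻¹} : Set T) := by
            rw [MonoidHom.map_closure, Set.image_pair]
            congr 2
            have h8 : (A.subtype.comp G.subtype) (g * uG * g⁻¹) = (((g * uG * g⁻¹ : G) : A) : T) := rfl
            rw [h8, hgu]
            rfl
          rw [← h7] at h6
          have e := (closure ({uG, g * uG * g⁻¹} : Set G)).equivMapOfInjective _ hinj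
          exact h6.of_equiv e.symm
        refine hcl.to_le ?_
        apply sup_le
        · rw [zpowers_le]
          exact subset_closure (by simp)
        · rw [Subgroup.map_le_iff_le_comap, zpowers_le]
          exact subset_closure (by simp))
      -- commutators
      have hinter : (M ⊓ N.subgroupOf G).map G.subtype = ⊥ := by
        rw [← le_bot_iff, ← hK0]
        apply hK0max
        · rintro _ ⟨x, hx, rfl⟩
          exact hx.2
        · exact (hMp.to_le inf_le_left).map _
        · rintro m hm _ ⟨x, hx, rfl⟩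
          refine ⟨⟨m, (le_sup_left : N ≤ G) hm⟩ * x * (⟨m, (le_sup_left : N ≤ G) hm⟩ : G)⁻¹, ⟨?_, ?_⟩, rfl⟩
          · exact hM.conj_mem x hx.1 _
          · have h9 : (x : A) ∈ N := hx.2
            change m * (x : A) * m⁻¹ ∈ N
            exact hN.conj_mem _ h9 m
      let nG : G := ⟨n, (le_sup_left : N ≤ G) hn⟩
      have hc1 : uG * nG * uG⁻¹ * nG⁻¹ ∈ M ⊓ N.subgroupOf G := by
        constructor
        · have h1 : uG ∈ M := hMu (mem_zpowers uG)
          have h2 : nG * uG⁻¹ * nG⁻¹ ∈ M := hM.conj_mem _ (M.inv_mem h1) nG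
          have h3 := M.mul_mem h1 h2
          rwa [← mul_assoc, ← mul_assoc] at h3
        · have h1 : uA * n * uA⁻¹ ∈ N := hN.conj_mem n hn uA
          exact N.mul_mem h1 (N.inv_mem hn)
      have hc2 : uA * n * uA⁻¹ * n⁻¹ = 1 := by
        have h1 : G.subtype (uG * nG * uG⁻¹ * nG⁻¹) ∈ (M ⊓ N.subgroupOf G).map G.subtype := ⟨_, hc1, rfl⟩
        rw [hinter, mem_bot] at h1
        exact h1
      have h10 := mul_inv_eq_one.1 hc2
      exact mul_inv_eq_iff_eq_mul.1 h10
    -- `t` centralises `N`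
    have htc : ∀ n ∈ N, tA * n = n * tA := by
      intro n hn
      have h1 : closure S ≤ centralizer ({(n : T)} : Set T) := by
        rw [closure_le]
        intro u hu
        rw [SetLike.mem_coe, mem_centralizer_iff]
        rintro _ rfl
        exact (congrArg Subtype.val (hcent u hu n hn)).symm
      have h2 := mem_centralizer_iff.1 (h1 htS) n rfl
      exact Subtype.ext h2.symm
    have htcent : ∀ a : A, tA * a = a * tA := by
      intro a
      have h1 := hNc a
      set m := tA * a * tA⁻¹ * a⁻¹ with hm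
      have htt : tA * tA = 1 := Subtype.ext ht2'
      have htinv : tA⁻¹ = tA := inv_eq_of_mul_eq_one_left htt
      have h2 : a * tA * a⁻¹ = tA * m := by
        rw [hm, htinv]
        rw [show tA * (tA * a * tA * a⁻¹) = (tA * tA) * (a * tA * a⁻¹) by group, htt, one_mul]
      have h3 : (a * tA * a⁻¹) * (a * tA * a⁻¹) = 1 := by
        rw [show (a * tA * a⁻¹) * (a * tA * a⁻¹) = a * (tA * tA) * a⁻¹ by group, htt, mul_one, mul_inv_cancel]
      rw [h2] at h3
      have h4 : m * m = 1 := by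
        have h5 : tA * m * (tA * m) = (tA * tA) * (m * m) := by
          rw [show tA * m * (tA * m) = tA * (m * tA) * m by group, ← htc m h1]
          group
        rw [h5, htt, one_mul] at h3
        exact h3
      have h6 : orderOf m ∣ 2 := orderOf_dvd_of_pow_eq_one (by rw [pow_two]; exact h4)
      have h7 : orderOf m ∣ Nat.card N := by
        have := orderOf_dvd_natCard (⟨m, h1⟩ : N)
        rwa [← Subgroup.orderOf_coe] at this
      have h8 : orderOf m = 1 := by
        rcases (Nat.dvd_prime Nat.prime_two).1 h6 with h9 | h9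
        · exact h9
        · exfalso
          rw [h9] at h7
          exact (Nat.not_even_iff_odd.2 hNodd) (even_iff_two_dvd.2 h7)
      rw [orderOf_eq_one_iff] at h8
      rw [h8, mul_one] at h2
      exact (mul_inv_eq_iff_eq_mul.1 h2).symm
    obtain ⟨s, hst, hs2, hsc⟩ := hex
    have hsA : s ∈ A := by
      apply Cfsg.Agent.H680.Fxy.IF.norm h (K := zpowers t) ?_ ?_ ?_ (x := s) ?_
      · rw [zpowers_le]; exact ht
      · intro σ hσ k hk
        have h1 : σ t = t := by
          have h2 : σ t ∈ A := (h.inv σ hσ t).2 ht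
          have h3 : orderOf (σ t) = 2 := by rw [MulEquiv.orderOf_eq]; exact ht2
          exact hno _ h2 _ ht h3 ht2 (congrArg Subtype.val (htcent ⟨σ t, h2⟩)).symm
        obtain ⟨i, rfl⟩ := mem_zpowers_iff.1 hk
        rw [map_zpow, h1]
        exact zpow_mem (mem_zpowers t) i
      · intro h1
        rw [zpowers_eq_bot] at h1
        rw [h1, orderOf_one] at ht2
        omega
      · intro k hk
        obtain ⟨i, rfl⟩ := mem_zpowers_iff.1 hk
        have h1 : s * t * s⁻¹ = t := by rw [hsc, mul_inv_cancel_right]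
        rw [← conj_zpow, h1]
        exact zpow_mem (mem_zpowers t) i
    exact hst (hno s hsA t ht hs2 ht2 hsc)
  · exact ⟨K, hKA, hK1, hKp, hKn, fun x hx => Cfsg.Agent.H680.Fxy.IF.norm h hKA hKinv hK1 hx, hKmax⟩

end Cfsg.Agent.H838.IF
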