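import Cfsg.Agent.H838.IF.RankOne
import Cfsg.Agent.H811.PU4.Five
import Cfsg.Agent.H910.IF.Types
import Cfsg.Agent.H744.Pu4.Main

/-!
# S5719, `PSU_4(q)`, W6b and W6c (helper838): no two commuting involutions
-/

set_option autoImplicit false
set_option linter.unusedSectionVars false

namespace Cfsg.Agent.H838.IF

open Module Subgroup Cfsg Cfsg.Agent.H91.U Cfsg.Agent.H450.UF Cfsg.Agent.H450.Bs Cfsg.Agent.H209.Fxy
open Cfsg.Agent.ClassicalGeometry.HermWitt (trace_surj norm_surj)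

section

variable {F V : Type*} [Field F] [AddCommGroup V] [Module F V] [FiniteDimensional F V] {σ : F →+* F}
  {B : V →ₛₗ[σ] V →ₗ[F] F} {H : Subgroup (V ≃ₗ[F] V)} {q : ℕ}

/-- expansion in four orthonormal vectors -/
theorem expand (hV : finrank F V = 4) {e : Fin 4 → V}
    (he : ∀ i j, B (e i) (e j) = if i = j then 1 else 0) (w : V) : w = ∑ i, B (e i) w • e i := by
  have hli : LinearIndependent F e := by
    rw [Fintype.linearIndependent_iff]
    intro c h i
    have h1 := congrArg (B (e i)) h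
    rw [map_sum, map_zero] at h1
    rw [← h1, Finset.sum_eq_single i]
    · rw [smul_right, he, if_pos rfl, mul_one]
    · intro j _ hj
      rw [smul_right, he, if_neg (Ne.symm hj), mul_zero]
    · intro h2
      exact absurd (Finset.mem_univ _) h2
  let b : Basis (Fin 4) F V := basisOfLinearIndependentOfCardEqFinrank hli (by rw [Fintype.card_fin, hV])
  have hb : ∀ i, b i = e i := fun i => by
    change (basisOfLinearIndependentOfCardEqFinrank hli _) i = e i
    rw [coe_basisOfLinearIndependentOfCardEqFinrank]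
  have h1 : ∀ i, b.repr w i = B (e i) w := by
    intro i
    conv_rhs => rw [← b.sum_repr w]
    rw [map_sum, Finset.sum_eq_single i]
    · rw [smul_right, hb, he, if_pos rfl, mul_one]
    · intro j _ hj
      rw [smul_right, hb, he, if_neg (Ne.symm hj), mul_zero]
    · intro h2
      exact absurd (Finset.mem_univ _) h2
  conv_lhs => rw [← b.sum_repr w]
  exact Finset.sum_congr rfl fun i _ => by rw [h1, hb]

/-- two planes which share exactly one basis vector -/
theorem adj [Fintype F] (hB : HForm B) (hF : Fintype.card F = q ^ 2) (hV : finrank F V = 4) (hq : Odd q) (h5 : 5 ≤ q)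
    (hH : Pk B H) {e : Fin 4 → V} (he : ∀ i j, B (e i) (e j) = if i = j then 1 else 0)
    (h1 : On B H (Submodule.span F {e 0, e 1})) (h2 : On B H (Submodule.span F {e 0, e 2})) : False := by
  let e' : Fin 3 → V := ![e 0, e 1, e 2]
  have he' : ∀ i j, B (e' i) (e' j) = if i = j then 1 else 0 := by
    intro i j
    fin_cases i <;> fin_cases j <;> simp [e', he]
  have h3 := Cfsg.Agent.H248.UF.On.three hB hF hH.le he' h1 h2
  refine Cfsg.Agent.H811.PU4.no_three hB hF hV hq h5 hH (v := e 3) (by rw [he, if_pos rfl]; exact one_ne_zero) ?_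
  intro c hc hc0 hcc
  refine h3 c ?_ hc0 hcc
  rw [expand hV he c, Fin.sum_univ_four, hc, zero_smul, add_zero]
  refine add_mem (add_mem ?_ ?_) ?_ <;> refine Submodule.smul_mem _ _ (Submodule.subset_span ?_)
  · exact ⟨0, rfl⟩
  · exact ⟨1, rfl⟩
  · exact ⟨2, rfl⟩

/-- the same with four vectors -/
theorem adj' [Fintype F] (hB : HForm B) (hF : Fintype.card F = q ^ 2) (hV : finrank F V = 4) (hq : Odd q) (h5 : 5 ≤ q)
    (hH : Pk B H) {a b c d : V} (haa : B a a = 1) (hbb : B b b = 1) (hcc : B c c = 1) (hdd : B d d = 1)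
    (hab : B a b = 0) (hac : B a c = 0) (had : B a d = 0) (hbc : B b c = 0) (hbd : B b d = 0) (hcd : B c d = 0)
    {P Q : Submodule F V} (haP : a ∈ P) (hbP : b ∈ P) (haQ : a ∈ Q) (hcQ : c ∈ Q) (h1 : On B H P) (h2 : On B H Q) :
    False := by
  have hba := hB.swap_zero hab
  have hca := hB.swap_zero hac
  have hda := hB.swap_zero had
  have hcb := hB.swap_zero hbc
  have hdb := hB.swap_zero hbd
  have hdc := hB.swap_zero hcd
  refine adj hB hF hV hq h5 hH (e := ![a, b, c, d]) ?_ ?_ ?_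
  · intro i j
    fin_cases i <;> fin_cases j <;> simp [haa, hbb, hcc, hdd, hab, hac, had, hbc, hbd, hcd, hba, hca, hda, hcb, hdb, hdc]
  · intro x hx
    refine h1 x ((Submodule.span_le.2 ?_) hx)
    rintro y (rfl | rfl)
    · exact haP
    · exact hbP
  · intro x hx
    refine h2 x ((Submodule.span_le.2 ?_) hx)
    rintro y (rfl | rfl)
    · exact haQ
    · exact hcQ

theorem decp [Finite F] (hB : HForm B) {P : Submodule F V} (hP : NP B P) (v : V) :
    ∃ a ∈ P, ∃ u ∈ pp B P, v = a + u := by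
  obtain ⟨a, ha, u, hu, hv⟩ := exists_decomp hB hP.nd v
  exact ⟨a, ha, u, mem_pp.2 fun z hz => hB.swap_zero (hu z hz), hv⟩

theorem neg_mem_of [Finite F] (h2 : (2 : F) ≠ 0) (hB : HForm B) {P : Submodule F V} (hP : NP B P) {t : V ≃ₗ[F] V} (ht : Neg B t P)
    {v : V} (hv : t v = -v) : v ∈ P := by
  obtain ⟨a, ha, u, hu, rfl⟩ := decp hB hP v
  rw [map_add, ht.1 a ha, ht.2 u hu] at hv
  have h1 : (2 : F) • u = 0 := by
    rw [two_smul]
    have h3 : -a + u + (a + u) = 0 := by rw [hv, neg_add_cancel]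
    calc u + u = -a + u + (a + u) := by abel
      _ = 0 := h3
  rw [(smul_eq_zero.1 h1).resolve_left h2, add_zero]
  exact ha

theorem pos_mem_of [Finite F] (h2 : (2 : F) ≠ 0) (hB : HForm B) {P : Submodule F V} (hP : NP B P) {t : V ≃ₗ[F] V} (ht : Neg B t P)
    {v : V} (hv : t v = v) : v ∈ pp B P := by
  obtain ⟨a, ha, u, hu, rfl⟩ := decp hB hP v
  rw [map_add, ht.1 a ha, ht.2 u hu] at hv
  have h1 : (2 : F) • a = 0 := by
    rw [two_smul]
    have h3 : a + u - (-a + u) = 0 := by rw [hv, sub_self]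
    calc a + a = a + u - (-a + u) := by abel
      _ = 0 := h3
  rw [(smul_eq_zero.1 h1).resolve_left h2, zero_add]
  exact hu

theorem neg_sq [Finite F] (hB : HForm B) {P : Submodule F V} (hP : NP B P) {t : V ≃ₗ[F] V} (ht : Neg B t P) (v : V) :
    t (t v) = v := by
  obtain ⟨a, ha, u, hu, rfl⟩ := decp hB hP v
  rw [map_add, ht.1 a ha, ht.2 u hu, map_add, map_neg, ht.1 a ha, ht.2 u hu, neg_neg]

theorem norm_one [Finite F] (hB : HForm B) {x : V} (hx : B x x ≠ 0) : ∃ a : F, a ≠ 0 ∧ B (a • x) (a • x) = 1 := by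
  obtain ⟨c, hc0, hc⟩ := norm_surj σ hB.ne_id hB.invol (B x x)⁻¹ (by rw [map_inv₀, self_fix hB x]) (inv_ne_zero hx)
  refine ⟨c, hc0, ?_⟩
  rw [smul_right, smul_left, ← mul_assoc, hc, inv_mul_cancel₀ hx]

/-- the common eigenvectors in `P` -/
theorem exists_eig [Finite F] (h2 : (2 : F) ≠ 0) (hB : HForm B) (hV : finrank F V = 4) {P Q : Submodule F V} (hP : NP B P) (hQ : NP B Q)
    {t : V ≃ₗ[F] V} (ht : Neg B t Q) (htP : ∀ x ∈ P, t x ∈ P) (hPQ : P ≠ Q) (hPQ' : P ≠ pp B Q) :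
    ∃ x ∈ P, ∃ x' ∈ P, x ∈ Q ∧ x' ∈ pp B Q ∧ B x x = 1 ∧ B x' x' = 1 ∧ B x x' = 0 := by
  have hQp := np_pp hB hV hQ
  obtain ⟨x, hxP, hxQ, hx0⟩ : ∃ x ∈ P, x ∈ Q ∧ x ≠ 0 := by
    by_contra hcon
    push Not at hcon
    apply hPQ'
    refine Submodule.eq_of_le_of_finrank_eq (fun x hx => pos_mem_of h2 hB hQ ht ?_) (by rw [hP.dim, hQp.dim])
    have h3 : x - t x ∈ Q := neg_mem_of h2 hB hQ ht (by rw [map_sub, neg_sq hB hQ ht]; abel)
    have h4 := hcon _ (sub_mem hx (htP x hx)) h3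
    exact (sub_eq_zero.1 h4).symm
  obtain ⟨x', hxP', hxQ', hx0'⟩ : ∃ x ∈ P, x ∈ pp B Q ∧ x ≠ 0 := by
    by_contra hcon
    push Not at hcon
    apply hPQ
    refine Submodule.eq_of_le_of_finrank_eq (fun x hx => neg_mem_of h2 hB hQ ht ?_) (by rw [hP.dim, hQ.dim])
    have h3 : x + t x ∈ pp B Q := pos_mem_of h2 hB hQ ht (by rw [map_add, neg_sq hB hQ ht]; abel)
    have h4 := hcon _ (add_mem hx (htP x hx)) h3
    exact (neg_eq_of_add_eq_zero_right h4).symm
  have hxx' : B x x' = 0 := hB.swap_zero (mem_pp.1 hxQ' x hxQ)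
  have hsc : ∀ a : F, x' ≠ a • x := by
    intro a ha
    have h3 : x' = 0 := hQ.nd x' (by rw [ha]; exact Q.smul_mem _ hxQ) fun y hy => mem_pp.1 hxQ' y hy
    exact hx0' h3
  have hsc' : ∀ a : F, x ≠ a • x' := by
    intro a ha
    have h3 : x = 0 := hQ.nd x hxQ fun y hy => by
      rw [ha, smul_left, mem_pp.1 hxQ' y hy, mul_zero]
    exact hx0 h3
  have hn : B x x ≠ 0 := fun h0 => by
    obtain ⟨a, ha⟩ := np_scalar hB hP hxP hx0 h0 hxP' hxx'
    exact hsc a ha
  have hn' : B x' x' ≠ 0 := fun h0 => by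
    obtain ⟨a, ha⟩ := np_scalar hB hP hxP' hx0' h0 hxP (hB.swap_zero hxx')
    exact hsc' a ha
  obtain ⟨a, -, ha⟩ := norm_one hB hn
  obtain ⟨a', -, ha'⟩ := norm_one hB hn'
  refine ⟨a • x, P.smul_mem _ hxP, a' • x', P.smul_mem _ hxP', Q.smul_mem _ hxQ, (pp B Q).smul_mem _ hxQ', ha, ha', ?_⟩
  rw [smul_right, smul_left, hxx', mul_zero, mul_zero]

/-- commuting involutions of the first type -/
theorem cross [Fintype F] (hB : HForm B) (hF : Fintype.card F = q ^ 2) (hV : finrank F V = 4) (hq : Odd q) (h5 : 5 ≤ q)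
    (h2 : (2 : F) ≠ 0) (hH : Pk B H) (hC : StepC B H) {P Q : Submodule F V} (hP : NP B P) (hQ : NP B Q)
    {s t : V ≃ₗ[F] V} (hs : Neg B s P) (ht : Neg B t Q) (hsH : s ∈ H) (htH : t ∈ H) (hPQ : P ≠ Q)
    (hPQ' : P ≠ pp B Q) (hc : ∀ v, s (t v) = t (s v)) : False := by
  have hPp := np_pp hB hV hP
  have hQp := np_pp hB hV hQ
  have hpe : ∀ {X Y : Submodule F V}, NP B X → NP B Y → X = pp B Y → pp B X = Y := by
    intro X Y hX hY h
    refine (Submodule.eq_of_le_of_finrank_eq (fun y hy => ?_) (by rw [hY.dim, (np_pp hB hV hX).dim])).symm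
    rw [h, mem_pp]
    intro z hz
    exact hB.swap_zero (mem_pp.1 hz y hy)
  obtain ⟨x, hxP, x', hxP', hxQ, hxQ', hx, hx', hxx'⟩ := exists_eig h2 hB hV hP hQ ht
    (fun x hx => neg_mem_of h2 hB hP hs (by rw [hc, hs.1 x hx, map_neg])) hPQ hPQ'
  obtain ⟨y, hyP, y', hyP', hyQ, hyQ', hy, hy', hyy'⟩ := exists_eig h2 hB hV hPp hQ ht
    (fun x hx => pos_mem_of h2 hB hP hs (by rw [hc, hs.2 x hx]))
    (fun h => hPQ' (hpe hQ hP h.symm).symm) (fun h => by
      apply hPQ
      have h3 := hpe hPp hQ h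
      rw [← h3]
      exact (hpe hPp hP rfl).symm)
  have hxy : B x y = 0 := hB.swap_zero (mem_pp.1 hyP x hxP)
  have hxy' : B x y' = 0 := hB.swap_zero (mem_pp.1 hyP' x hxP)
  have hx'y : B x' y = 0 := hB.swap_zero (mem_pp.1 hyP x' hxP')
  have hx'y' : B x' y' = 0 := hB.swap_zero (mem_pp.1 hyP' x' hxP')
  rcases hC P s hP hs hsH with h3 | h3 <;> rcases hC Q t hQ ht htH with h4 | h4
  · exact adj' hB hF hV hq h5 hH hx hx' hy hy' hxx' hxy hxy' hx'y hx'y' hyy' hxP hxP' hxQ hyQ h3 h4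
  · exact adj' hB hF hV hq h5 hH hx' hx hy' hy (hB.swap_zero hxx') hx'y' hx'y hxy' hxy (hB.swap_zero hyy')
      hxP' hxP hxQ' hyQ' h3 h4
  · exact adj' hB hF hV hq h5 hH hy hy' hx hx' hyy' (hB.swap_zero hxy) (hB.swap_zero hx'y) (hB.swap_zero hxy')
      (hB.swap_zero hx'y') hxx' hyP hyP' hyQ hxQ h3 h4
  · exact adj' hB hF hV hq h5 hH hy' hy hx' hx (hB.swap_zero hyy') (hB.swap_zero hx'y') (hB.swap_zero hxy')
      (hB.swap_zero hx'y) (hB.swap_zero hxy) (hB.swap_zero hxx') hyP' hyP hyQ' hxQ' h3 h4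

/-- an element of square `-1` on `P` -/
theorem exists_jP (hB : HForm B) [Finite F] {P : Submodule F V} (hP : NP B P) (hO : On B H P) :
    ∃ j ∈ H, (∀ x ∈ P, j x ∈ P ∧ j (j x) = -x) ∧ (∀ u ∈ pp B P, j u = u) ∧ ∃ e ∈ P, B e e = 0 ∧ B e (j e) ≠ 0 := by
  obtain ⟨e, he, f, hf, hee, hff, hef⟩ := exists_hyp hB hP.nd hP.dim.ge
  obtain ⟨l, m, g1, g2, hl, hm, hg1, hg2, hm0, hlm, hwe, hwf, hwu⟩ := exists_w hB hee hff hef
  have hfe : B f e = 1 := by rw [sw hB e f, hef, map_one]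
  have he0 : e ≠ 0 := by
    rintro rfl
    rw [map_zero, LinearMap.zero_apply] at hef
    exact zero_ne_one hef
  have hf0 : f ≠ 0 := by
    rintro rfl
    rw [map_zero] at hef
    exact zero_ne_one hef
  have hg1H : g1 ∈ H := hO e he he0 hee l hl g1 hg1
  have hg2H : g2 ∈ H := hO f hf hf0 hff m hm g2 hg2
  refine ⟨g1 * g2 * g1, mul_mem (mul_mem hg1H hg2H) hg1H, ?_, ?_, e, he, hee, ?_⟩
  · intro x hx
    have h1 := np_basis hB hP he hf hee hff hef hx
    have h3 : (g1 * g2 * g1) x = (B f x * m) • f + (B e x * l) • e := by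
      conv_lhs => rw [h1]
      rw [map_add, map_smul, map_smul, hwe, hwf, smul_smul, smul_smul]
    refine ⟨?_, ?_⟩
    · rw [h3]
      exact add_mem (P.smul_mem _ hf) (P.smul_mem _ he)
    · rw [h3, map_add, map_smul, map_smul, hwe, hwf, smul_smul, smul_smul]
      conv_rhs => rw [h1]
      rw [mul_assoc, mul_assoc, mul_comm m l, hlm, mul_neg_one, mul_neg_one, neg_smul, neg_smul, neg_add, add_comm]
  · intro u hu
    exact hwu u (hB.swap_zero (mem_pp.1 hu e he) |> fun h => by simpa using h) (by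
      exact hB.swap_zero (mem_pp.1 hu f hf))
  · rw [hwe, smul_right, hef, mul_one]
    exact hm0

/-- **W6b** -/
theorem no_both [Fintype F] (hB : HForm B) (hF : Fintype.card F = q ^ 2) (hV : finrank F V = 4) (hq : Odd q)
    (h5 : 5 ≤ q) (h2 : (2 : F) ≠ 0) (hH : Pk B H) (hC : StepC B H) {P : Submodule F V} (hP : NP B P)
    (h1 : On B H P) (h1' : On B H (pp B P)) : False := by
  have hPp := np_pp hB hV hP
  obtain ⟨j1, hj1, hj1P, hj1u, e, he, hee, hej⟩ := exists_jP hB hP h1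
  obtain ⟨j2, hj2, hj2P, hj2u, -⟩ := exists_jP hB hPp h1'
  have hj2u : ∀ u ∈ P, j2 u = u := fun u hu => hj2u u (mem_pp.2 fun z hz => hB.swap_zero (mem_pp.1 hz u hu))
  obtain ⟨j, hj⟩ : ∃ j, j = j1 * j2 := ⟨_, rfl⟩
  have hjH : j ∈ H := by rw [hj]; exact mul_mem hj1 hj2
  have hjP : ∀ x ∈ P, j x = j1 x := fun x hx => by rw [hj, LinearEquiv.mul_apply, hj2u x hx]
  have hjQ : ∀ x ∈ pp B P, j x = j2 x := fun x hx => by rw [hj, LinearEquiv.mul_apply, hj1u _ (hj2P x hx).1]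
  have hjj : ∀ v, j (j v) = (-1 : F) • v := by
    intro v
    obtain ⟨a, ha, u, hu, rfl⟩ := decp hB hP v
    rw [map_add, hjP a ha, hjQ u hu, map_add, hjP _ (hj1P a ha).1, hjQ _ (hj2P u hu).1, (hj1P a ha).2, (hj2P u hu).2,
      neg_one_smul, neg_add]
  have hs : Neg B (j1 * j1) P := by
    refine ⟨fun x hx => ?_, fun u hu => ?_⟩
    · rw [LinearEquiv.mul_apply, (hj1P x hx).2]
    · rw [LinearEquiv.mul_apply, hj1u u hu, hj1u u hu]
  have hjs : ∀ v, (j1 * j1) (j v) = j ((j1 * j1) v) := by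
    intro v
    obtain ⟨a, ha, u, hu, rfl⟩ := decp hB hP v
    rw [map_add, map_add, map_add, map_add, hs.1 a ha, hs.2 u hu, hjP a ha, hjQ u hu, hs.1 _ (hj1P a ha).1,
      hs.2 _ (hj2P u hu).1, map_neg, hjP a ha]
  have hns : ∀ a : F, (∀ x ∈ P, j x = a • x) → False := by
    intro a ha
    apply hej
    rw [← hjP e he, ha e he, smul_right, hee, mul_zero]
  rcases Cfsg.Agent.H910.IF.types hB hF hV hq (hH.le hjH) (fun ⟨a, ha⟩ => hns a fun x _ => ha x)
    ⟨-1, fun v => by rw [LinearEquiv.mul_apply, hjj]⟩ with ⟨Q, t, a, hQ, ht, htS, hta⟩ | ⟨v, m, hv, hm, h3, h4⟩ | ⟨m, hm, h3⟩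
  · have ha0 : a ≠ 0 := by
      rintro rfl
      apply hns 0
      intro x _
      rw [hta]
      rw [zero_smul, zero_smul]
    have htH : t ∈ H := by
      have h6 : j * t⁻¹ ∈ H := hH.sc _ (mul_mem (hH.le hjH) (inv_mem htS)) ⟨a, fun v => by
        rw [LinearEquiv.mul_apply, hta]
        congr 1
        rw [← LinearEquiv.mul_apply, mul_inv_cancel]
        rfl⟩
      have h7 : t = (j * t⁻¹)⁻¹ * j := by group
      rw [h7]
      exact mul_mem (inv_mem h6) hjH
    refine cross hB hF hV hq h5 h2 hH hC hP hQ hs ht (mul_mem hj1 hj1) htH ?_ ?_ ?_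
    · rintro rfl
      apply hns (-a)
      intro x hx
      rw [hta, ht.1 x hx, smul_neg, neg_smul]
    · intro h6
      apply hns a
      intro x hx
      rw [hta, ht.2 x (by rw [← h6]; exact hx)]
    · intro v
      have h6 := hjs v
      rw [hta, hta, map_smul] at h6
      exact smul_right_injective V ha0 h6
  · exact Cfsg.Agent.H811.PU4.no_refl hB hF hV hq h5 hH hjH hv hm h3 h4
  · exact Cfsg.Agent.H744.Pu4.no_second hB hF hV hq h5 hH hC hjH hm h3

/-- **W6c** -/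
theorem no_comm [Fintype F] (hB : HForm B) (hF : Fintype.card F = q ^ 2) (hV : finrank F V = 4) (hq : Odd q)
    (h5 : 5 ≤ q) (hH : Pk B H) (hC : StepC B H) {P Q : Submodule F V} (hP : NP B P) (hQ : NP B Q)
    {s t : V ≃ₗ[F] V} (hs : Neg B s P) (ht : Neg B t Q) (hsH : s ∈ H) (htH : t ∈ H) (hPQ : P ≠ Q)
    (hPQ' : P ≠ pp B Q) (hc : Comm s t) : False := by
  have h2 : (2 : F) ≠ 0 := Cfsg.Agent.H811.PU4.two_ne hF hq
  obtain ⟨a, ha⟩ := hc
  have hs2 := neg_sq hB hP hs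
  have ht2 := neg_sq hB hQ ht
  have haa : a * a = 1 := by
    obtain ⟨e, he, f, hf, hee, hff, hef⟩ := exists_hyp hB hP.nd hP.dim.ge
    have he0 : e ≠ 0 := by
      rintro rfl
      rw [map_zero, LinearMap.zero_apply] at hef
      exact zero_ne_one hef
    have h3 : s (s (t e)) = (a * a) • t (s (s e)) := by
      rw [ha, map_smul, ha, smul_smul]
    rw [hs2, hs2] at h3
    have h4 : t e ≠ 0 := (LinearEquiv.map_ne_zero_iff t).2 he0
    have h5 : (a * a - 1) • t e = 0 := by rw [sub_smul, one_smul, ← h3, sub_self]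
    exact sub_eq_zero.1 ((smul_eq_zero.1 h5).resolve_right h4)
  rcases mul_self_eq_one_iff.1 haa with rfl | rfl
  · exact cross hB hF hV hq h5 h2 hH hC hP hQ hs ht hsH htH hPQ hPQ' fun v => by rw [ha, one_smul]
  · have hQp := np_pp hB hV hQ
    have h3 : ∀ v ∈ Q, s v ∈ pp B Q := by
      intro v hv
      apply pos_mem_of h2 hB hQ ht
      have h4 := ha v
      rw [ht.1 v hv, map_neg, neg_one_smul, neg_inj] at h4
      exact h4.symm
    have h3' : ∀ v ∈ pp B Q, s v ∈ Q := by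
      intro v hv
      apply neg_mem_of h2 hB hQ ht
      have h4 := ha v
      rw [ht.2 v hv, neg_one_smul] at h4
      exact (neg_eq_iff_eq_neg.2 h4).symm
    have hi : ∀ h ∈ H, ∀ x y, B (h x) (h y) = B x y := fun h hh x y => (hH.le hh).2 x y
    rcases hC Q t hQ ht htH with h4 | h4
    · refine no_both hB hF hV hq h5 h2 hH hC hQ h4 ?_
      intro c hc hc0 hcc
      have h6 := (h4 (s c) (h3' c hc) ((LinearEquiv.map_ne_zero_iff s).2 hc0) (by rw [hi s hsH]; exact hcc)).map hsH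
        (hi s hsH)
      rwa [hs2] at h6
    · refine no_both hB hF hV hq h5 h2 hH hC hQ ?_ h4
      intro c hc hc0 hcc
      have h6 := (h4 (s c) (h3 c hc) ((LinearEquiv.map_ne_zero_iff s).2 hc0) (by rw [hi s hsH]; exact hcc)).map hsH
        (hi s hsH)
      rwa [hs2] at h6

end

end Cfsg.Agent.H838.IF
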