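import Cfsg.Agent.H450.Bs.GenU
import Cfsg.Agent.H209.IF.Kill
import Cfsg.Agent.H847.IF.Lift

/-!
# S5719, `PSU_4(q)`: definitions (helper838)

`V` hermitian space of dimension four, `H ≤ GL(V)` the preimage of `A` in `SIso B`.
* `NP B P` : nondegenerate plane; `Neg B t P` : `t = -1` on `P`, `1` on `P^⊥`; `Scal g`; `Comm h t` : modulo scalars;
* `cls B t` : the number of `SIso B`-conjugates; `SUW B W` : `SU(W)`; `On B H W` : all transvections with centre in `W`
  are in `H`; `Pk B H` : the package of properties of `H`.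
-/

set_option autoImplicit false
set_option linter.unusedSectionVars false

namespace Cfsg.Agent.H838.IF

open Module Subgroup Cfsg Cfsg.Agent.H91.U Cfsg.Agent.H450.UF Cfsg.Agent.H450.Bs Cfsg.Agent.H209.Fxy

section

variable {F V : Type*} [Field F] [AddCommGroup V] [Module F V] {σ : F →+* F} (B : V →ₛₗ[σ] V →ₗ[F] F)

/-- nondegenerate plane -/
structure NP (P : Submodule F V) : Prop where
  dim : finrank F P = 2
  nd : ∀ x ∈ P, (∀ y ∈ P, B x y = 0) → x = 0

/-- `t` is `-1` on `P` and `1` on the orthogonal space -/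
def Neg (t : V ≃ₗ[F] V) (P : Submodule F V) : Prop := (∀ x ∈ P, t x = -x) ∧ ∀ u ∈ pp B P, t u = u

/-- scalar transformations -/
def Scal (g : V ≃ₗ[F] V) : Prop := ∃ a : F, ∀ v, g v = a • v

/-- `h` commutes with `t` modulo scalars -/
def Comm (h t : V ≃ₗ[F] V) : Prop := ∃ a : F, ∀ v, h (t v) = a • t (h v)

/-- the number of `SIso B`-conjugates of `t` -/
noncomputable def cls (t : V ≃ₗ[F] V) : ℕ := {s : V ≃ₗ[F] V | ∃ g ∈ SIso B, s = g * t * g⁻¹}.ncard

/-- the subgroup `SU(W)`: special isometries, trivial on the orthogonal space of `W` -/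
def SUW (W : Submodule F V) : Subgroup (V ≃ₗ[F] V) where
  carrier := {g | g ∈ SIso B ∧ ∀ u ∈ pp B W, g u = u}
  mul_mem' := fun {g h} hg hh => ⟨mul_mem hg.1 hh.1, fun u hu => by
    rw [LinearEquiv.mul_apply, hh.2 u hu, hg.2 u hu]⟩
  one_mem' := ⟨one_mem _, fun _ _ => rfl⟩
  inv_mem' := fun {g} hg => ⟨inv_mem hg.1, fun u hu => by
    have h1 : g⁻¹ (g u) = u := by
      rw [← LinearEquiv.mul_apply, inv_mul_cancel]
      rfl
    rwa [hg.2 u hu] at h1⟩

theorem mem_SUW {W : Submodule F V} {g : V ≃ₗ[F] V} :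
    g ∈ SUW B W ↔ g ∈ SIso B ∧ ∀ u ∈ pp B W, g u = u := Iff.rfl

/-- all transvections with centre in `W` are in `H` -/
def On (H : Subgroup (V ≃ₗ[F] V)) (W : Submodule F V) : Prop := ∀ c ∈ W, c ≠ 0 → B c c = 0 → PP B H c

/-- the package of properties of the preimage `H` of `A` -/
structure Pk (H : Subgroup (V ≃ₗ[F] V)) : Prop where
  le : H ≤ SIso B
  ne : ¬ SIso B ≤ H
  sc : ∀ g ∈ SIso B, Scal g → g ∈ H
  /-- (E2) -/
  e2 : ∀ t ∈ H, ¬ Scal t → Scal (t * t) → ∀ K : Subgroup (V ≃ₗ[F] V), K ≤ SIso B → (∀ k ∈ K, Comm k t) →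
    H.relIndex K ^ 5 < cls B t

/-- (step C) -/
def StepC (H : Subgroup (V ≃ₗ[F] V)) : Prop :=
  ∀ (P : Submodule F V) (t : V ≃ₗ[F] V), NP B P → Neg B t P → t ∈ H → On B H P ∨ On B H (pp B P)

end

end Cfsg.Agent.H838.IF
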