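import Mathlib

/-!
# Lifting `p`-subgroups through a central `p'`-kernel; fixed vectors of `p`-groups modulo a submodule (helper838, S5719)
-/

set_option autoImplicit false
set_option linter.unusedSectionVars false

namespace Cfsg.Agent.H838.IF

open Subgroup MulAction

/-- lifting a `p`-subgroup -/
theorem lift_p {G T : Type*} [Group G] [Finite G] [Group T] (f : G →* T) {p : ℕ} [Fact p.Prime]
    (hker : ∀ x, f x = 1 → ∀ g, g * x = x * g) (hcop : ∀ x, f x = 1 → ∀ n, x ^ (p ^ n) = 1 → x = 1)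
    {K : Subgroup T} (hK : IsPGroup p K) (hKr : K ≤ f.range) :
    ∃ L : Subgroup G, IsPGroup p L ∧ L.map f = K ∧
      (∀ g : G, (∀ k ∈ K, f g * k * (f g)⁻¹ ∈ K) → ∀ x ∈ L, g * x * g⁻¹ ∈ L) ∧
      ∀ x : G, f x ∈ K → (∃ n, x ^ (p ^ n) = 1) → x ∈ L := by
  classical
  let M : Subgroup G := K.comap f
  obtain ⟨P⟩ : Nonempty (Sylow p M) := inferInstance
  let f' : M →* K := (f.comp M.subtype).codRestrict K (fun x => x.2)
  have hf' : Function.Surjective f' := by
    rintro ⟨k, hk⟩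
    obtain ⟨g, hg⟩ := hKr hk
    exact ⟨⟨g, by rw [mem_comap, hg]; exact hk⟩, Subtype.ext hg⟩
  have hfin : Finite K := Finite.of_surjective _ hf'
  have hPK : (P : Subgroup M).map f' = ⊤ := by
    rw [← Subgroup.index_eq_one]
    have h1 : ((P : Subgroup M).map f').index ∣ (P : Subgroup M).index := Subgroup.index_map_dvd _ hf'
    have h2 : ((P : Subgroup M).map f').index ∣ Nat.card K := Subgroup.index_dvd_card _
    have h3 : ¬ p ∣ (P : Subgroup M).index := P.not_dvd_index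
    obtain ⟨n, hn⟩ := IsPGroup.iff_card.1 hK
    rw [hn] at h2
    obtain ⟨m, -, hm⟩ := (Nat.dvd_prime_pow Fact.out).1 h2
    rcases Nat.eq_zero_or_pos m with h4 | h4
    · rw [hm, h4, pow_zero]
    · exfalso
      apply h3
      refine dvd_trans ?_ h1
      rw [hm]
      exact dvd_pow_self p h4.ne'
  have hdec : ∀ x : M, ∃ y ∈ (P : Subgroup M), ∃ z : G, f z = 1 ∧ (x : G) = y * z := by
    intro x
    have h1 : f' x ∈ (P : Subgroup M).map f' := by rw [hPK]; exact mem_top _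
    obtain ⟨y, hy, hxy⟩ := h1
    have h2 : f (y : G) = f x := congrArg Subtype.val hxy
    refine ⟨y, hy, (y : G)⁻¹ * x, ?_, by group⟩
    rw [map_mul, map_inv, h2, inv_mul_cancel]
  have hmem : ∀ x : G, f x ∈ K → (∃ n, x ^ (p ^ n) = 1) → x ∈ (P : Subgroup M).map M.subtype := by
    rintro x hx ⟨n, hn⟩
    obtain ⟨y, hy, z, hz, hxy⟩ := hdec ⟨x, hx⟩
    have hxy' : x = y * z := hxy
    obtain ⟨m, hm⟩ := P.isPGroup' ⟨y, hy⟩
    have hm' : (y : G) ^ (p ^ m) = 1 := by
      have := congrArg (fun w : (P : Subgroup M) => ((w : M) : G)) hm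
      simpa using this
    have hc : Commute (y : G) z := hker z hz y
    have h1 : z ^ (p ^ (n + m)) = 1 := by
      have h2 : x ^ (p ^ (n + m)) = 1 := by rw [pow_add, pow_mul, hn, one_pow]
      rw [hxy', hc.mul_pow, pow_add, mul_comm (p ^ n), pow_mul, hm', one_pow, one_mul, mul_comm] at h2
      rw [pow_add]
      exact h2
    have h3 := hcop z hz _ h1
    rw [h3, mul_one] at hxy'
    exact ⟨y, hy, hxy'.symm⟩
  refine ⟨(P : Subgroup M).map M.subtype, P.isPGroup'.map _, ?_, ?_, hmem⟩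
  · apply le_antisymm
    · rintro _ ⟨_, ⟨y, -, rfl⟩, rfl⟩
      exact y.2
    · intro k hk
      have h1 : (⟨k, hk⟩ : K) ∈ (P : Subgroup M).map f' := by rw [hPK]; exact mem_top _
      obtain ⟨y, hy, hxy⟩ := h1
      exact ⟨y, ⟨y, hy, rfl⟩, congrArg Subtype.val hxy⟩
  · rintro g hg _ ⟨y, hy, rfl⟩
    apply hmem
    · rw [map_mul, map_mul, map_inv]
      exact hg _ y.2
    · obtain ⟨m, hm⟩ := P.isPGroup' ⟨y, hy⟩
      have hm' : (y : G) ^ (p ^ m) = 1 := by
        have := congrArg (fun w : (P : Subgroup M) => ((w : M) : G)) hm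
        simpa using this
      refine ⟨m, ?_⟩
      change (g * (y : G) * g⁻¹) ^ (p ^ m) = 1
      rw [conj_pow, hm', mul_one, mul_inv_cancel]

/-- fixed vectors of a `p`-group modulo a submodule -/
theorem exists_fixed_mod {F V : Type*} [Field F] [Finite F] [AddCommGroup V] [Module F V] [Finite V] {p : ℕ} [Fact p.Prime]
    (hp : (p : F) = 0) {G : Subgroup (V ≃ₗ[F] V)} (hG : IsPGroup p G) {X Y : Submodule F V} (hYX : Y < X)
    (hX : ∀ g ∈ G, ∀ x ∈ X, g x ∈ X) (hY : ∀ g ∈ G, ∀ y ∈ Y, g y ∈ Y) :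
    ∃ x ∈ X, x ∉ Y ∧ ∀ g ∈ G, g x - x ∈ Y := by
  classical
  let Y' : Submodule F X := Y.comap X.subtype
  let r : G → (X →ₗ[F] X) := fun g => (g : V ≃ₗ[F] V).toLinearMap.restrict (fun x hx => hX g g.2 x hx)
  have hr : ∀ (g : G) (x : X), ((r g x : X) : V) = (g : V ≃ₗ[F] V) x := fun g x => rfl
  have hrY : ∀ g : G, Y' ≤ Y'.comap (r g) := by
    intro g x hx
    exact hY g g.2 x hx
  let act : MulAction G (X ⧸ Y') :=
    { smul := fun g x => Y'.mapQ Y' (r g) (hrY g) x
      one_smul := by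
        intro x
        obtain ⟨x, rfl⟩ := Y'.mkQ_surjective x
        change Y'.mapQ Y' (r 1) (hrY 1) (Submodule.Quotient.mk x) = _
        rw [Submodule.mapQ_apply]
        congr 1
      mul_smul := by
        intro g h x
        obtain ⟨x, rfl⟩ := Y'.mkQ_surjective x
        change Y'.mapQ Y' (r (g * h)) (hrY _) (Submodule.Quotient.mk x) =
          Y'.mapQ Y' (r g) (hrY g) (Y'.mapQ Y' (r h) (hrY h) (Submodule.Quotient.mk x))
        rw [Submodule.mapQ_apply, Submodule.mapQ_apply, Submodule.mapQ_apply]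
        congr 1 }
  have hsm : ∀ (g : G) (x : X), g • (Submodule.Quotient.mk x : X ⧸ Y') = Submodule.Quotient.mk (r g x) := fun g x => rfl
  have hfin : Finite (X ⧸ Y') := Finite.of_surjective _ Y'.mkQ_surjective
  have hnt : Nontrivial (X ⧸ Y') := by
    rw [Submodule.Quotient.nontrivial_iff]
    intro h1
    apply hYX.not_ge
    intro x hx
    have h2 : (⟨x, hx⟩ : X) ∈ Y' := by rw [h1]; trivial
    exact h2
  have hdvd : p ∣ Nat.card (X ⧸ Y') := by
    obtain ⟨x, hx⟩ := exists_ne (0 : X ⧸ Y')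
    have h1 : addOrderOf x = p := by
      apply addOrderOf_eq_prime _ hx
      rw [← Nat.cast_smul_eq_nsmul F, hp, zero_smul]
    rw [← h1]
    exact addOrderOf_dvd_natCard x
  have h0 : (0 : X ⧸ Y') ∈ fixedPoints G (X ⧸ Y') := by
    intro g
    have h1 := hsm g 0
    rw [Submodule.Quotient.mk_zero] at h1
    rw [h1, map_zero, Submodule.Quotient.mk_zero]
  obtain ⟨b, hb, hb0⟩ := hG.exists_fixed_point_of_prime_dvd_card_of_fixed_point (X ⧸ Y') hdvd h0
  obtain ⟨x, rfl⟩ := Y'.mkQ_surjective b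
  refine ⟨x, x.2, ?_, ?_⟩
  · intro h1
    apply hb0
    symm
    rw [Submodule.mkQ_apply, Submodule.Quotient.mk_eq_zero]
    exact h1
  · intro g hg
    have h1 := hb ⟨g, hg⟩
    rw [Submodule.mkQ_apply, hsm, Submodule.Quotient.eq] at h1
    exact h1

end Cfsg.Agent.H838.IF
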