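import Cfsg.Agent.H838.IF.RkGeo
import Cfsg.Agent.H838.IF.RkOne
import Cfsg.Agent.H847.IF.PSUfour
import Cfsg.Agent.H353.IF.PhiSL
import Cfsg.Agent.S0205

/-!
# S5719, `PSU_4(q)`, `q` odd: the rank one case (helper838)
-/

set_option autoImplicit false
set_option linter.unusedSectionVars false

namespace Cfsg.Agent.H838.IF

open Module Subgroup Cfsg Cfsg.Agent.H91.U Cfsg.Agent.H450.UF Cfsg.Agent.H450.Bs Cfsg.Agent.H209.Fxy
open Cfsg.Agent.H77.Witt (formB)
open Cfsg.Agent.H847.IF (HA mem_HA pi_eq_one_iff)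

section

variable {F V : Type*} [Field F] [Finite F] [AddCommGroup V] [Module F V] [FiniteDimensional F V] {σ : F →+* F}
  {B : V →ₛₗ[σ] V →ₗ[F] F} {H : Subgroup (V ≃ₗ[F] V)}

theorem pp_pp (hB : HForm B) (hV : finrank F V = 4) {P : Submodule F V} (hP : NP B P) {u : V} (hu : u ∈ pp B (pp B P)) :
    u ∈ P := by
  obtain ⟨a, ha, b, hb, rfl⟩ := exists_decomp hB hP.nd u
  have hb' : b ∈ pp B P := mem_pp.2 fun z hz => hB.swap_zero (hb z hz)
  have h1 : b = 0 := by
    apply (np_pp hB hV hP).nd b hb'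
    intro z hz
    have h2 := mem_pp.1 hu z hz
    rwa [map_add, LinearMap.add_apply, hB.swap_zero (mem_pp.1 hz a ha), zero_add] at h2
  rw [h1, add_zero]
  exact ha

theorem tv_conj {c : V} {l : F} {g h : V ≃ₗ[F] V} (hh : ∀ x y, B (h x) (h y) = B x y) (hg : IsTv B c l g) :
    IsTv B (h c) l (h * g * h⁻¹) := by
  intro x
  have h1 : (h * g * h⁻¹) x = h (g (h.symm x)) := rfl
  have h2 : B (h c) x = B c (h.symm x) := by
    rw [← hh c (h.symm x), LinearEquiv.apply_symm_apply]
  rw [h1, hg, map_add, LinearEquiv.apply_symm_apply, map_smul, h2]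

theorem tv_pow {c : V} (hc : B c c = 0) {l : F} {g : V ≃ₗ[F] V} (hg : IsTv B c l g) (n : ℕ) :
    IsTv B c (n * l) (g ^ n) := by
  induction n with
  | zero =>
    intro x
    rw [pow_zero, Nat.cast_zero, zero_mul, zero_mul, zero_smul, add_zero]
    rfl
  | succ n ih =>
    intro x
    rw [pow_succ', LinearEquiv.mul_apply, ih, hg, map_add, map_smul, hc, smul_zero, add_zero, Nat.cast_succ, add_assoc,
      ← add_smul]
    congr 2
    ring

theorem tv_comm (hB : HForm B) {c c' : V} (h0 : B c c' = 0) {l l' : F} {g g' : V ≃ₗ[F] V} (hg : IsTv B c l g)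
    (hg' : IsTv B c' l' g') : g * g' = g' * g := by
  apply LinearEquiv.ext
  intro x
  rw [LinearEquiv.mul_apply, LinearEquiv.mul_apply, hg, hg', hg', hg, map_add, map_add, map_smul, map_smul, h0,
    hB.swap_zero h0, smul_zero, smul_zero, add_zero, add_zero]
  abel

/-- an element of square `-1` on the plane, trivial on the orthogonal space -/
theorem exists_w (hB : HForm B) {e f : V} (he : B e e = 0) (hf : B f f = 0) (hef : B e f = 1) :
    ∃ (l m : F) (g1 g2 : V ≃ₗ[F] V), l + σ l = 0 ∧ m + σ m = 0 ∧ IsTv B e l g1 ∧ IsTv B f m g2 ∧ m ≠ 0 ∧ l * m = -1 ∧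
      (g1 * g2 * g1) e = m • f ∧ (g1 * g2 * g1) f = l • e ∧
      ∀ u, B e u = 0 → B f u = 0 → (g1 * g2 * g1) u = u := by
  have hfe : B f e = 1 := by rw [sw hB e f, hef, map_one]
  obtain ⟨l, hl0, hl⟩ := exists_trz hB
  obtain ⟨g1, hg1⟩ := exists_tv he l
  obtain ⟨g2, hg2⟩ := exists_tv hf (-l⁻¹)
  have hlm : l * -l⁻¹ = -1 := by rw [mul_neg, mul_inv_cancel₀ hl0]
  have hs0 : σ l ≠ 0 := sig_ne_zero hl0
  refine ⟨l, -l⁻¹, g1, g2, hl, ?_, hg1, hg2, neg_ne_zero.2 (inv_ne_zero hl0), hlm, ?_, ?_, ?_⟩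
  · rw [map_neg, map_inv₀]
    field_simp
    linear_combination -hl
  · have h1 : g1 e = e := by rw [hg1, he, mul_zero, zero_smul, add_zero]
    have h2 : g2 e = e + (-l⁻¹) • f := by rw [hg2, hfe, mul_one]
    have h3 : g1 f = f + l • e := by rw [hg1, hef, mul_one]
    rw [LinearEquiv.mul_apply, LinearEquiv.mul_apply, h1, h2, map_add, h1, map_smul, h3, smul_add, smul_smul,
      mul_comm, hlm, neg_one_smul]
    abel
  · have h2 : g2 e = e + (-l⁻¹) • f := by rw [hg2, hfe, mul_one]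
    have h3 : g1 f = f + l • e := by rw [hg1, hef, mul_one]
    have h4 : g2 f = f := by rw [hg2, hf, mul_zero, zero_smul, add_zero]
    have h1 : g1 e = e := by rw [hg1, he, mul_zero, zero_smul, add_zero]
    rw [LinearEquiv.mul_apply, LinearEquiv.mul_apply, h3, map_add, h4, map_smul, h2, smul_add, smul_smul, hlm,
      neg_one_smul, show f + (l • e + -f) = l • e by abel, map_smul, h1]
  · intro u h5 h6
    have h7 : g1 u = u := by rw [hg1, h5, mul_zero, zero_smul, add_zero]
    have h8 : g2 u = u := by rw [hg2, h6, mul_zero, zero_smul, add_zero]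
    rw [LinearEquiv.mul_apply, LinearEquiv.mul_apply, h7, h8, h7]

/-- the unipotent radical of the stabiliser of the point `b` -/
def Qb (B : V →ₛₗ[σ] V →ₗ[F] F) (b : V) : Subgroup (SIso B) where
  carrier := {g | g.1 b = b ∧ ∀ x, B b x = 0 → ∃ a : F, g.1 x = x + a • b}
  mul_mem' := by
    rintro g h ⟨hg, hg'⟩ ⟨hh, hh'⟩
    refine ⟨?_, fun x hx => ?_⟩
    · rw [Subgroup.coe_mul, LinearEquiv.mul_apply, hh, hg]
    · obtain ⟨a, ha⟩ := hh' x hx
      obtain ⟨c, hc⟩ := hg' x hx
      refine ⟨c + a, ?_⟩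
      rw [Subgroup.coe_mul, LinearEquiv.mul_apply, ha, map_add, hc, map_smul, hg, add_smul, add_assoc]
  one_mem' := ⟨rfl, fun x _ => ⟨0, by rw [zero_smul, add_zero]; rfl⟩⟩
  inv_mem' := by
    rintro g ⟨hg, hg'⟩
    have h1 : ∀ x, (g⁻¹ : SIso B).1 (g.1 x) = x := fun x => by
      rw [← LinearEquiv.mul_apply, ← Subgroup.coe_mul, inv_mul_cancel]
      rfl
    have h2 : (g⁻¹ : SIso B).1 b = b := by
      have := h1 b
      rwa [hg] at this
    refine ⟨h2, fun x hx => ?_⟩
    obtain ⟨a, ha⟩ := hg' x hx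
    refine ⟨-a, ?_⟩
    have h3 := h1 x
    rw [ha, map_add, map_smul, h2] at h3
    rw [neg_smul, ← sub_eq_add_neg, eq_sub_iff_add_eq, h3]

theorem mem_Qb {b : V} {g : SIso B} : g ∈ Qb B b ↔ g.1 b = b ∧ ∀ x, B b x = 0 → ∃ a : F, g.1 x = x + a • b := Iff.rfl

/-- the elements of `Qb` have order `p` -/
theorem Qb_pow (hB : HForm B) {b : V} {g : SIso B} (hg : g ∈ Qb B b) (x : V) :
    ∃ a : F, ∀ n : ℕ, (g ^ n).1 x = x + (n : F) • (g.1 x - x) + ((n.choose 2 : ℕ) : F) • (a • b) := by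
  have h1 : B b (g.1 x - x) = 0 := by
    have h2 := g.2.2 b x
    rw [hg.1] at h2
    rw [map_sub, h2, sub_self]
  obtain ⟨a, ha⟩ := hg.2 _ h1
  refine ⟨a, fun n => ?_⟩
  induction n with
  | zero => simp
  | succ n ih =>
    have h3 : (g ^ (n + 1)).1 x = g.1 ((g ^ n).1 x) := by
      rw [pow_succ', Subgroup.coe_mul, LinearEquiv.mul_apply]
    rw [h3, ih, map_add, map_add, map_smul, map_smul, map_smul, hg.1, ha, Nat.choose_succ_succ' n 1, Nat.choose_one_right]
    push_cast
    have h4 : g.1 x = x + (g.1 x - x) := by abel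
    conv_lhs => rw [h4]
    module

theorem Qb_p (hB : HForm B) {p : ℕ} (hp : (p : F) = 0) (hp2 : Odd p) (hp1 : p.Prime) {b : V} {g : SIso B} (hg : g ∈ Qb B b) :
    g ^ p = 1 := by
  apply Subtype.ext
  apply LinearEquiv.ext
  intro x
  obtain ⟨a, ha⟩ := Qb_pow hB hg x
  have h1 : ((p.choose 2 : ℕ) : F) = 0 := by
    have h2 : p ∣ p.choose 2 := hp1.dvd_choose_self (by norm_num) (by
      rcases hp2 with ⟨k, hk⟩
      have := hp1.two_le
      omega)
    obtain ⟨c, hc⟩ := h2
    rw [hc, Nat.cast_mul, hp, zero_mul]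
  rw [ha p, hp, h1, zero_smul, zero_smul, add_zero, add_zero]
  rfl

/-- an element fixing the point `b` normalises `Qb` -/
theorem Qb_conj (hB : HForm B) {b : V} {h : SIso B} {c : F} (hb : b ≠ 0) (hh : h.1 b = c • b) {g : SIso B} (hg : g ∈ Qb B b) :
    h * g * h⁻¹ ∈ Qb B b := by
  have h1 : ∀ x, (h⁻¹ : SIso B).1 (h.1 x) = x := fun x => by
    rw [← LinearEquiv.mul_apply, ← Subgroup.coe_mul, inv_mul_cancel]
    rfl
  have h2 : ∀ x, h.1 ((h⁻¹ : SIso B).1 x) = x := fun x => by
    rw [← LinearEquiv.mul_apply, ← Subgroup.coe_mul, mul_inv_cancel]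
    rfl
  have hc : c ≠ 0 := by
    rintro rfl
    rw [zero_smul] at hh
    exact hb ((LinearEquiv.map_eq_zero_iff _).1 hh)
  have h3 : (h⁻¹ : SIso B).1 b = c⁻¹ • b := by
    have h4 := h1 b
    rw [hh, map_smul] at h4
    rw [eq_inv_smul_iff₀ hc, h4]
  have h5 : ∀ x, (h * g * h⁻¹ : SIso B).1 x = h.1 (g.1 ((h⁻¹ : SIso B).1 x)) := fun x => rfl
  refine ⟨?_, fun x hx => ?_⟩
  · rw [h5, h3, map_smul, hg.1, ← h3, h2]
  · have h6 : B b ((h⁻¹ : SIso B).1 x) = 0 := by
      have h7 := h.2.2 b ((h⁻¹ : SIso B).1 x)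
      rw [h2, hh, smul_left, hx, mul_zero] at h7
      exact h7.symm
    obtain ⟨a, ha⟩ := hg.2 _ h6
    refine ⟨a * c, ?_⟩
    rw [h5, ha, map_add, h2, map_smul, hh, smul_smul]

end

section

variable {F : Type*} [Field F] [Fintype F] {q : ℕ}

/-- the elements of trace zero -/
theorem card_trz (hF : Fintype.card F = q ^ 2) {σ : F →+* F} (ne : σ ≠ RingHom.id F) (inv : ∀ a, σ (σ a) = a) :
    q ≤ Nat.card {k : F // k + σ k = 0} := by
  classical
  let φ : F →+ F := AddMonoidHom.id F + σ.toAddMonoidHom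
  have hφ : ∀ k, φ k = k + σ k := fun k => rfl
  have hq1 : 1 < q := by
    by_contra hcon
    have h1 : 1 < Fintype.card F := Fintype.one_lt_card
    rw [hF] at h1
    interval_cases q <;> omega
  have h1 : Nat.card φ.range ≤ q := by
    have h2 : ∀ x : φ.range, (x : F) ∈ (Polynomial.X ^ q - Polynomial.X : Polynomial F).roots.toFinset := by
      rintro ⟨x, hx⟩
      obtain ⟨k, hk⟩ := id hx
      have hx' : σ x = x := by rw [← hk, hφ, map_add, inv, add_comm]
      rw [Multiset.mem_toFinset, Polynomial.mem_roots (FiniteField.X_pow_card_sub_X_ne_zero F hq1)]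
      rw [Polynomial.IsRoot.def, Polynomial.eval_sub, Polynomial.eval_pow, Polynomial.eval_X, sub_eq_zero,
        ← sig_eq hF ne inv]
      exact hx'
    have h3 := Nat.card_le_card_of_injective
      (fun x : φ.range => (⟨(x : F), h2 x⟩ : {y // y ∈ (Polynomial.X ^ q - Polynomial.X : Polynomial F).roots.toFinset}))
      (fun a b hab => Subtype.ext (Subtype.mk.inj hab))
    refine h3.trans ?_
    rw [Nat.card_eq_fintype_card, Fintype.card_coe]
    refine (Multiset.toFinset_card_le _).trans ((Polynomial.card_roots' _).trans ?_)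
    rw [FiniteField.X_pow_card_sub_X_natDegree_eq F hq1]
  have h2 : Nat.card φ.ker * Nat.card φ.range = q ^ 2 := by
    have h3 := AddSubgroup.card_mul_index φ.ker
    rw [AddSubgroup.index_ker, Nat.card_eq_fintype_card (α := F), hF] at h3
    exact h3
  have h3 : Nat.card {k : F // k + σ k = 0} = Nat.card φ.ker :=
    Nat.card_congr (Equiv.subtypeEquivRight fun k => by rw [AddMonoidHom.mem_ker, hφ])
  rw [h3]
  by_contra hcon
  push Not at hcon
  have h4 : Nat.card φ.ker * Nat.card φ.range < q * q :=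
    lt_of_le_of_lt (Nat.mul_le_mul_left _ h1) (Nat.mul_lt_mul_of_pos_right hcon (by omega))
  rw [h2, pow_two] at h4
  exact lt_irrefl _ h4

/-- the group of transvections with centre `c` -/
def RTv {V : Type*} [AddCommGroup V] [Module F V] {σ : F →+* F} {B : V →ₛₗ[σ] V →ₗ[F] F} {c : V} (hc : B c c = 0) :
    Subgroup (SIso B) where
  carrier := {u | ∃ k : F, IsTv B c k u.1}
  mul_mem' := by
    rintro u v ⟨k, hk⟩ ⟨k', hk'⟩
    refine ⟨k + k', fun x => ?_⟩
    rw [Subgroup.coe_mul, LinearEquiv.mul_apply, hk', hk, map_add, map_smul, hc, smul_zero, add_zero, add_assoc,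
      ← add_smul]
    congr 2
    ring
  one_mem' := ⟨0, fun x => by rw [zero_mul, zero_smul, add_zero]; rfl⟩
  inv_mem' := by
    rintro u ⟨k, hk⟩
    refine ⟨-k, fun x => ?_⟩
    apply u.1.injective
    have h1 : u.1 ((u⁻¹ : SIso B).1 x) = x := by
      rw [← LinearEquiv.mul_apply, ← Subgroup.coe_mul, mul_inv_cancel]
      rfl
    rw [h1, hk, map_add, map_smul, hc, smul_zero, add_zero, add_assoc, ← add_smul]
    rw [show -k * B c x + k * B c x = 0 by ring, zero_smul, add_zero]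

theorem mem_RTv {V : Type*} [AddCommGroup V] [Module F V] {σ : F →+* F} {B : V →ₛₗ[σ] V →ₗ[F] F} {c : V}
    (hc : B c c = 0) {u : SIso B} : u ∈ RTv hc ↔ ∃ k : F, IsTv B c k u.1 := Iff.rfl

theorem card_RTv (hF : Fintype.card F = q ^ 2) {V : Type*} [AddCommGroup V] [Module F V] [Finite V]
    [FiniteDimensional F V] {σ : F →+* F} {B : V →ₛₗ[σ] V →ₗ[F] F} (hB : HForm B) {c : V} (hc : B c c = 0)
    (hc0 : c ≠ 0) : q ≤ Nat.card (RTv hc) := by
  classical
  have := Finite.of_injective (fun e : V ≃ₗ[F] V => (e : V → V)) (fun _ _ h => LinearEquiv.ext fun v => congrFun h v)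
  refine (card_trz hF hB.ne_id hB.invol).trans ?_
  have h1 : ∀ k : {k : F // k + σ k = 0}, ∃ u : RTv hc, IsTv B c k u.1.1 := by
    rintro ⟨k, hk⟩
    obtain ⟨g, hg⟩ := exists_tv hc k
    exact ⟨⟨⟨g, hg.mem hB hc hk⟩, k, hg⟩, hg⟩
  choose φ hφ using h1
  apply Nat.card_le_card_of_injective φ
  intro k k' hkk
  obtain ⟨y, hy⟩ := hB.exists_ne hc0
  have h2 := hφ k y
  have h3 := hφ k' y
  rw [hkk, h3, add_right_inj] at h2
  have h4 : ((k' : F) - k) • (B c y • c) = 0 := by
    rw [sub_smul, smul_smul, smul_smul, h2, sub_self]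
  rcases smul_eq_zero.1 h4 with h5 | h5
  · exact Subtype.ext (sub_eq_zero.1 h5).symm
  · rcases smul_eq_zero.1 h5 with h6 | h6
    · exact absurd h6 hy
    · exact absurd h6 hc0

set_option maxHeartbeats 1600000 in
theorem rank_one_on (hF : Fintype.card F = q ^ 2) [hs : IsSimpleGroup (PSU 4 F q)] {A : Subgroup (PSU 4 F q)}
    {Γ : Subgroup (MulAut (PSU 4 F q))} (h : IF A Γ) (hq : Odd q)
    (hno : ∀ s ∈ A, ∀ t ∈ A, orderOf s = 2 → orderOf t = 2 → s * t = t * s → s = t)
    {P : Submodule F (Fin 4 → F)} (hP : NP (formB hF 4) P) (hO : On (formB hF 4) (HA hF A) P)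
    {t : (Fin 4 → F) ≃ₗ[F] (Fin 4 → F)} (ht : Neg (formB hF 4) t P) (htH : t ∈ HA hF A) : False := by
  classical
  have hB := hform hF 4
  have hV : finrank F (Fin 4 → F) = 4 := by rw [finrank_fin_fun]
  have hfin : Finite ((Fin 4 → F) ≃ₗ[F] (Fin 4 → F)) := Finite.of_injective
    (fun e : (Fin 4 → F) ≃ₗ[F] (Fin 4 → F) => (e : (Fin 4 → F) → (Fin 4 → F)))
    (fun _ _ h => LinearEquiv.ext fun v => congrFun h v)
  have hfin2 : Finite (PSU 4 F q) := Finite.of_surjective _ (pi_surjective hF 4)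
  have hPk := Cfsg.Agent.H847.IF.pk_of_IF hF h
  -- the characteristic
  obtain ⟨p, hpc⟩ := CharP.exists F
  have hpp : p.Prime := CharP.char_is_prime F p
  have hfact : Fact p.Prime := ⟨hpp⟩
  have hp0 : (p : F) = 0 := CharP.cast_eq_zero F p
  have hpodd : Odd p := by
    obtain ⟨n, -, hn⟩ := FiniteField.card F p
    rcases hpp.eq_two_or_odd' with h2 | h2
    · exfalso
      rw [hF, h2] at hn
      have h3 : Odd (q ^ 2) := hq.pow
      rw [hn] at h3
      have h4 : Even (2 ^ (n : ℕ)) := (Nat.even_pow' n.ne_zero).2 even_two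
      exact (Nat.not_even_iff_odd.2 h3) h4
    · exact h2
  have h2F : (2 : F) ≠ 0 := by
    intro h2
    have h3 : p ∣ 2 := (CharP.cast_eq_zero_iff F p 2).1 (by exact_mod_cast h2)
    have h4 := (Nat.prime_dvd_prime_iff_eq hpp Nat.prime_two).1 h3
    rw [h4] at hpodd
    exact absurd hpodd (by decide)
  obtain ⟨htS, htA⟩ : ∃ h : t ∈ SIso (formB hF 4), pi hF 4 ⟨t, h⟩ ∈ A := ⟨hPk.le htH, (mem_HA hF A ⟨t, hPk.le htH⟩).1 htH⟩
  set tT : SIso (formB hF 4) := ⟨t, htS⟩ with htT
  obtain ⟨e, he, f, hf, hee, hff, hef⟩ := exists_hyp hB hP.nd hP.dim.ge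
  have hPp := np_pp hB hV hP
  obtain ⟨e', he', f', hf', hee', hff', hef'⟩ := exists_hyp hB hPp.nd hPp.dim.ge
  have ne_of : ∀ x y : Fin 4 → F, formB hF 4 x y = 1 → x ≠ 0 ∧ y ≠ 0 := by
    intro x y hxy
    refine ⟨?_, ?_⟩
    · rintro rfl
      rw [map_zero, LinearMap.zero_apply] at hxy
      exact zero_ne_one hxy
    · rintro rfl
      rw [map_zero] at hxy
      exact zero_ne_one hxy
  have hte : t e = -e := ht.1 e he
  have htv : ∀ a ∈ P, ∀ u ∈ pp (formB hF 4) P, t (a + u) = -a + u := fun a ha u hu => by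
    rw [map_add, ht.1 a ha, ht.2 u hu]
  have hdec : ∀ v : Fin 4 → F, ∃ a ∈ P, ∃ u ∈ pp (formB hF 4) P, v = a + u := by
    intro v
    obtain ⟨a, ha, u, hu, hv⟩ := exists_decomp hB hP.nd v
    exact ⟨a, ha, u, mem_pp.2 fun z hz => hB.swap_zero (hu z hz), hv⟩
  -- the elements of square `-1`
  obtain ⟨l, m, g1, g2, hl, hm, hg1, hg2, hm0, hlm, hwe, hwf, hwu⟩ := exists_w hB hee hff hef
  obtain ⟨l', m', g1', g2', hl', hm', hg1', hg2', hm0', hlm', hwe', hwf', hwu'⟩ := exists_w hB hee' hff' hef'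
  set w := g1 * g2 * g1 with hw
  set w' := g1' * g2' * g1' with hw'
  have hg1S := hg1.mem hB hee hl
  have hg2S := hg2.mem hB hff hm
  have hg1S' := hg1'.mem hB hee' hl'
  have hg2S' := hg2'.mem hB hff' hm'
  have hwS : w ∈ SIso (formB hF 4) := mul_mem (mul_mem hg1S hg2S) hg1S
  have hwS' : w' ∈ SIso (formB hF 4) := mul_mem (mul_mem hg1S' hg2S') hg1S'
  have hwP : ∀ u ∈ pp (formB hF 4) P, w u = u := fun u hu =>
    hwu u (hB.swap_zero (mem_pp.1 hu e he)) (hB.swap_zero (mem_pp.1 hu f hf))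
  have hwP' : ∀ u ∈ P, w' u = u := fun u hu => hwu' u (mem_pp.1 he' u hu) (mem_pp.1 hf' u hu)
  have hwx : ∀ a ∈ P, w a ∈ P ∧ w (w a) = -a := by
    intro a ha
    rw [np_basis hB hP he hf hee hff hef ha]
    set α := formB hF 4 f a
    set β := formB hF 4 e a
    have h1 : w (α • e + β • f) = (β * l) • e + (α * m) • f := by
      rw [map_add, map_smul, map_smul, hwe, hwf, smul_smul, smul_smul, add_comm]
    refine ⟨?_, ?_⟩
    · rw [h1]
      exact add_mem (P.smul_mem _ he) (P.smul_mem _ hf)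
    · rw [h1, map_add, map_smul, map_smul, hwe, hwf, smul_smul, smul_smul, neg_add, ← neg_smul, ← neg_smul, add_comm]
      congr 2
      · linear_combination α * hlm
      · linear_combination β * hlm
  have hwx' : ∀ a ∈ pp (formB hF 4) P, w' a ∈ pp (formB hF 4) P ∧ w' (w' a) = -a := by
    intro a ha
    rw [np_basis hB hPp he' hf' hee' hff' hef' ha]
    set α := formB hF 4 f' a
    set β := formB hF 4 e' a
    have h1 : w' (α • e' + β • f') = (β * l') • e' + (α * m') • f' := by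
      rw [map_add, map_smul, map_smul, hwe', hwf', smul_smul, smul_smul, add_comm]
    refine ⟨?_, ?_⟩
    · rw [h1]
      exact add_mem (Submodule.smul_mem _ _ he') (Submodule.smul_mem _ _ hf')
    · rw [h1, map_add, map_smul, map_smul, hwe', hwf', smul_smul, smul_smul, neg_add, ← neg_smul, ← neg_smul, add_comm]
      congr 2
      · linear_combination α * hlm'
      · linear_combination β * hlm'
  have hww : w * w = t := by
    apply LinearEquiv.ext
    intro v
    obtain ⟨a, ha, u, hu, rfl⟩ := hdec v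
    rw [htv a ha u hu, LinearEquiv.mul_apply, map_add, map_add, (hwx a ha).2, hwP u hu, hwP u hu]
  -- orders
  have ht1 : pi hF 4 tT ≠ 1 := by
    intro h1
    obtain ⟨a, ha⟩ := (pi_eq_one_iff hF (by norm_num) _).1 h1
    have h3 : t e' = e' := ht.2 e' he'
    have h4 : t e = a • e := ha e
    have h5 : t e' = a • e' := ha e'
    have h6 : a = 1 := by
      rw [h3] at h5
      have h7 : (1 - a) • e' = 0 := by rw [sub_smul, one_smul, ← h5, sub_self]
      rcases smul_eq_zero.1 h7 with h8 | h8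
      · exact (sub_eq_zero.1 h8).symm
      · exact absurd h8 (ne_of e' f' hef').1
    rw [h6, one_smul, hte] at h4
    have h9 : (2 : F) • e = 0 := by
      rw [two_smul]
      nth_rewrite 1 [← h4]
      exact neg_add_cancel e
    rcases smul_eq_zero.1 h9 with h8 | h8
    · exact h2F h8
    · exact (ne_of e f hef).1 h8
  have htt : tT * tT = 1 := by
    apply Subtype.ext
    apply LinearEquiv.ext
    intro v
    obtain ⟨a, ha, u, hu, rfl⟩ := hdec v
    have h1 : (tT * tT).1 (a + u) = t (t (a + u)) := rfl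
    rw [h1, htv a ha u hu, htv (-a) (P.neg_mem ha) u hu, neg_neg]
    rfl
  have ht2 : orderOf (pi hF 4 tT) = 2 := by
    apply orderOf_eq_prime _ ht1
    rw [pow_two, ← map_mul, htt, map_one]
  -- the second involution
  have hex : ∃ s : PSU 4 F q, s ≠ pi hF 4 tT ∧ orderOf s = 2 ∧ s * pi hF 4 tT = pi hF 4 tT * s := by
    let sT : SIso (formB hF 4) := ⟨w * w', mul_mem hwS hwS'⟩
    have hse : sT.1 e = m • f := by
      change w (w' e) = m • f
      rw [hwP' e he, hwe]
    have hnf : ∀ a : F, m • f ≠ a • e := by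
      intro a h1
      have h3 : formB hF 4 e (m • f) = 0 := by rw [h1, map_smul, hee, smul_zero]
      rw [map_smul, hef, smul_eq_mul, mul_one] at h3
      exact hm0 h3
    have hsv : ∀ a ∈ P, ∀ u ∈ pp (formB hF 4) P, sT.1 (a + u) = w a + w' u := by
      intro a ha u hu
      change w (w' (a + u)) = _
      rw [map_add, hwP' a ha, map_add, hwP _ (hwx' u hu).1]
    refine ⟨pi hF 4 sT, ?_, ?_, ?_⟩
    · intro h1
      have h3 : pi hF 4 (sT * tT⁻¹) = 1 := by rw [map_mul, map_inv, h1, mul_inv_cancel]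
      obtain ⟨a, ha⟩ := (pi_eq_one_iff hF (by norm_num) _).1 h3
      have h4 := ha (-e)
      have h5 : (sT * tT⁻¹).1 (-e) = sT.1 e := by
        have h6 : (tT⁻¹).1 (-e) = e := by
          have h7 : (tT⁻¹ * tT).1 e = e := by rw [inv_mul_cancel]; rfl
          have h8 : (tT⁻¹ * tT).1 e = (tT⁻¹).1 (t e) := rfl
          rw [h8, hte] at h7
          exact h7
        change sT.1 ((tT⁻¹).1 (-e)) = _
        rw [h6]
      rw [h5, hse] at h4
      exact hnf (-a) (by rw [h4, smul_neg, neg_smul])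
    · apply orderOf_eq_prime
      · rw [pow_two, ← map_mul]
        apply (pi_eq_one_iff hF (by norm_num) _).2
        refine ⟨-1, fun v => ?_⟩
        obtain ⟨a, ha, u, hu, rfl⟩ := hdec v
        change sT.1 (sT.1 (a + u)) = _
        rw [hsv a ha u hu, hsv _ (hwx a ha).1 _ (hwx' u hu).1, (hwx a ha).2, (hwx' u hu).2, neg_one_smul, neg_add]
      · intro h1
        obtain ⟨a, ha⟩ := (pi_eq_one_iff hF (by norm_num) _).1 h1
        exact hnf a (by rw [← hse]; exact ha e)
    · rw [← map_mul, ← map_mul]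
      congr 1
      apply Subtype.ext
      apply LinearEquiv.ext
      intro v
      obtain ⟨a, ha, u, hu, rfl⟩ := hdec v
      change sT.1 (t (a + u)) = t (sT.1 (a + u))
      rw [htv a ha u hu, hsv _ (P.neg_mem ha) u hu, hsv a ha u hu, htv _ (hwx a ha).1 _ (hwx' u hu).1, map_neg]
  -- the transvections
  have hSmem : ∀ (u : SIso (formB hF 4)) (c : Fin 4 → F) (k : F), IsTv (formB hF 4) c k u.1 →
      formB hF 4 c c = 0 → u ^ p = 1 := by
    intro u c k hu hcc
    apply Subtype.ext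
    apply LinearEquiv.ext
    intro x
    have h1 := tv_pow hcc hu p x
    rw [hp0, zero_mul, zero_mul, zero_smul, add_zero] at h1
    exact h1
  let S : Set (PSU 4 F q) := {x | ∃ (u : SIso (formB hF 4)) (c : Fin 4 → F) (k : F), c ∈ P ∧ formB hF 4 c c = 0 ∧
    u.1 ∈ HA hF A ∧ IsTv (formB hF 4) c k u.1 ∧ x = pi hF 4 u}
  have hgS : ∀ (g : (Fin 4 → F) ≃ₗ[F] (Fin 4 → F)) (hg : g ∈ SIso (formB hF 4)) (c : Fin 4 → F) (k : F), c ∈ P →
      c ≠ 0 → formB hF 4 c c = 0 → k + _ = 0 → IsTv (formB hF 4) c k g → pi hF 4 ⟨g, hg⟩ ∈ S :=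
    fun g hg c k hc hc0 hcc hk hgt => ⟨⟨g, hg⟩, c, k, hc, hcc, hO c hc hc0 hcc k hk g hgt, hgt, rfl⟩
  have htclo : pi hF 4 tT ∈ closure S := by
    have h1 : tT = ((⟨g1, hg1S⟩ : SIso (formB hF 4)) * ⟨g2, hg2S⟩ * ⟨g1, hg1S⟩) *
        ((⟨g1, hg1S⟩ : SIso (formB hF 4)) * ⟨g2, hg2S⟩ * ⟨g1, hg1S⟩) := Subtype.ext hww.symm
    have h3 : pi hF 4 ⟨g1, hg1S⟩ ∈ closure S := subset_closure (hgS g1 hg1S e l he (ne_of e f hef).1 hee hl hg1)
    have h4 : pi hF 4 ⟨g2, hg2S⟩ ∈ closure S := subset_closure (hgS g2 hg2S f m hf (ne_of e f hef).2 hff hm hg2)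
    rw [h1, map_mul, map_mul, map_mul]
    exact mul_mem (mul_mem (mul_mem h3 h4) h3) (mul_mem (mul_mem h3 h4) h3)
  have hpS : ∀ u ∈ S, ∀ a ∈ A, Odd (Nat.card (closure ({u, a * u * a⁻¹} : Set (PSU 4 F q)))) →
      IsPGroup p (closure ({u, a * u * a⁻¹} : Set (PSU 4 F q))) := by
    rintro _ ⟨u, c, k, hc, hcc, huH, hu, rfl⟩ a ha hodd
    obtain ⟨a1, rfl⟩ := pi_surjective hF 4 a
    set u2 : SIso (formB hF 4) := a1 * u * a1⁻¹ with hu2
    have hu2' : IsTv (formB hF 4) (a1.1 c) k u2.1 := tv_conj a1.2.2 hu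
    have hpu2 : pi hF 4 a1 * pi hF 4 u * (pi hF 4 a1)⁻¹ = pi hF 4 u2 := by rw [hu2, map_mul, map_mul, map_inv]
    rw [hpu2] at hodd ⊢
    have hcc2 : formB hF 4 (a1.1 c) (a1.1 c) = 0 := by rw [a1.2.2, hcc]
    have hcomm : u * u2 = u2 * u := by
      by_cases hk0 : k = 0
      · have h1 : u = 1 := by
          apply Subtype.ext
          apply LinearEquiv.ext
          intro x
          have := hu x
          rw [hk0, zero_mul, zero_smul, add_zero] at this
          exact this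
        rw [h1, one_mul, mul_one]
      have hB0 : formB hF 4 c (a1.1 c) = 0 := by
        have hmapcl : ∀ z ∈ closure ({u.1, u2.1} : Set ((Fin 4 → F) ≃ₗ[F] (Fin 4 → F))),
            ∃ y : SIso (formB hF 4), y.1 = z ∧ pi hF 4 y ∈ closure ({pi hF 4 u, pi hF 4 u2} : Set (PSU 4 F q)) := by
          intro z hz
          have h1 : (closure ({u, u2} : Set (SIso (formB hF 4)))).map (SIso (formB hF 4)).subtype =
              closure ({u.1, u2.1} : Set ((Fin 4 → F) ≃ₗ[F] (Fin 4 → F))) := by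
            rw [MonoidHom.map_closure, Set.image_pair]
            rfl
          have h3 : (closure ({u, u2} : Set (SIso (formB hF 4)))).map (pi hF 4) =
              closure ({pi hF 4 u, pi hF 4 u2} : Set (PSU 4 F q)) := by
            rw [MonoidHom.map_closure, Set.image_pair]
          rw [← h1] at hz
          obtain ⟨y, hy, rfl⟩ := hz
          refine ⟨y, rfl, ?_⟩
          rw [← h3]
          exact ⟨y, hy, rfl⟩
        have hpair := Cfsg.Agent.H353.Phi.pair (F := F) (V := Fin 4 → F) h2F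
          (fun D _ _ h => Cfsg.Agent.S0205.result h)
          (Y := closure ({u.1, u2.1} : Set ((Fin 4 → F) ≃ₗ[F] (Fin 4 → F)))) ?_ ?_
          (t := u.1) (t' := u2.1) (subset_closure (by simp)) (subset_closure (by simp))
          (φ := k • formB hF 4 c) (ψ := k • formB hF 4 (a1.1 c)) (v₀ := c) (v₁ := a1.1 c)
          (fun v => hu v) (fun v => hu2' v) ?_ ?_
        · rcases hpair with h1 | h1
          · rw [LinearMap.smul_apply, smul_eq_mul] at h1
            exact (mul_eq_zero.1 h1).resolve_left hk0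
          · rw [LinearMap.smul_apply, smul_eq_mul] at h1
            exact hB.swap_zero ((mul_eq_zero.1 h1).resolve_left hk0)
        · rw [closure_le]
          rintro z (rfl | rfl)
          · exact (Cfsg.Agent.H353.Phi.mem_slV).2 (by
              have h1 := congrArg Units.val u.2.1
              rwa [LinearEquiv.coe_det, Units.val_one] at h1)
          · exact (Cfsg.Agent.H353.Phi.mem_slV).2 (by
              have h1 := congrArg Units.val u2.2.1
              rwa [LinearEquiv.coe_det, Units.val_one] at h1)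
        · intro z hz hfd
          obtain ⟨hzz, hdim⟩ := (Cfsg.Agent.H353.Phi.fund_iff h2F).1 hfd
          obtain ⟨y, rfl, hy⟩ := hmapcl z hz
          have h1 : pi hF 4 y ^ 2 = 1 := by
            have h3 : y * y = 1 := Subtype.ext hzz
            rw [pow_two, ← map_mul, h3, map_one]
          have h3 : orderOf (pi hF 4 y) ∣ 2 := orderOf_dvd_of_pow_eq_one h1
          have h4 : orderOf (pi hF 4 y) ∣ Nat.card (closure ({pi hF 4 u, pi hF 4 u2} : Set (PSU 4 F q))) := by
            have h5 := orderOf_dvd_natCard (⟨pi hF 4 y, hy⟩ : closure ({pi hF 4 u, pi hF 4 u2} : Set (PSU 4 F q)))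
            rwa [← Subgroup.orderOf_coe] at h5
          have h5 : pi hF 4 y = 1 := by
            rcases (Nat.dvd_prime Nat.prime_two).1 h3 with h6 | h6
            · exact orderOf_eq_one_iff.1 h6
            · exfalso
              rw [h6] at h4
              exact (Nat.not_even_iff_odd.2 hodd) (even_iff_two_dvd.2 h4)
          obtain ⟨b, hb⟩ := (pi_eq_one_iff hF (by norm_num) _).1 h5
          have h6 : ∀ v, v ∈ Cfsg.Agent.H353.Phi.negS y.1 ↔ (b + 1) • v = 0 := by
            intro v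
            rw [Cfsg.Agent.H353.Phi.mem_negS, hb, add_smul, one_smul, eq_neg_iff_add_eq_zero]
          by_cases h7 : b + 1 = 0
          · have h8 : Cfsg.Agent.H353.Phi.negS y.1 = ⊤ := by
              rw [eq_top_iff]
              intro v _
              rw [h6, h7, zero_smul]
            rw [h8, finrank_top, hV] at hdim
            omega
          · have h8 : Cfsg.Agent.H353.Phi.negS y.1 = ⊥ := by
              rw [eq_bot_iff]
              intro v hv
              rw [h6] at hv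
              rw [Submodule.mem_bot]
              exact (smul_eq_zero.1 hv).resolve_left h7
            rw [h8, finrank_bot] at hdim
            omega
        · rw [LinearMap.smul_apply, hcc, smul_zero]
        · rw [LinearMap.smul_apply, hcc2, smul_zero]
      exact Subtype.ext (tv_comm hB hB0 hu hu2')
    have hz : ∀ x : PSU 4 F q, x ^ p = 1 → IsPGroup p (zpowers x) := by
      intro x hx
      rw [IsPGroup.iff_card, Nat.card_zpowers]
      rcases (Nat.dvd_prime hpp).1 (orderOf_dvd_of_pow_eq_one hx) with hn | hn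
      · exact ⟨0, by rw [hn, pow_zero]⟩
      · exact ⟨1, by rw [hn, pow_one]⟩
    have h1 := hz (pi hF 4 u) (by rw [← map_pow, hSmem u c k hu hcc, map_one])
    have h3 := hz (pi hF 4 u2) (by rw [← map_pow, hSmem u2 _ k hu2' hcc2, map_one])
    have hcomm' : pi hF 4 u * pi hF 4 u2 = pi hF 4 u2 * pi hF 4 u := by rw [← map_mul, hcomm, map_mul]
    have h4 : IsPGroup p (zpowers (pi hF 4 u) ⊔ zpowers (pi hF 4 u2) : Subgroup (PSU 4 F q)) := by
      apply IsPGroup.to_sup_of_normal_left' h1 h3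
      rw [zpowers_le, mem_normalizer_iff]
      have key : ∀ z ∈ zpowers (pi hF 4 u), pi hF 4 u2 * z = z * pi hF 4 u2 := by
        intro z hz
        obtain ⟨i, rfl⟩ := mem_zpowers_iff.1 hz
        exact ((show Commute (pi hF 4 u2) (pi hF 4 u) from hcomm'.symm).zpow_right i).eq
      intro z
      constructor
      · intro hz
        rw [key z hz, mul_inv_cancel_right]
        exact hz
      · intro hz
        have h5 : pi hF 4 u2 * (pi hF 4 u2 * z * (pi hF 4 u2)⁻¹) = pi hF 4 u2 * z := by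
          rw [key _ hz, inv_mul_cancel_right]
        rwa [mul_left_cancel h5] at hz
    refine h4.to_le ?_
    rw [closure_le]
    rintro x (rfl | rfl)
    · exact (le_sup_left : zpowers _ ≤ _) (mem_zpowers _)
    · exact (le_sup_right : zpowers _ ≤ _) (mem_zpowers _)
  -- the normal `p`-subgroup
  obtain ⟨K, hKA, hK1, hKp, hKn, hKnorm, hKmax⟩ := rk_one h (p := p) (by rintro rfl; exact absurd hpodd (by decide))
    htA ht2 hno hex (S := S)
    (by rintro _ ⟨u, c, k, -, -, huH, -, rfl⟩; exact (mem_HA hF A u).1 huH)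
    (by
      rintro _ ⟨u, c, k, -, hcc, -, hu, rfl⟩
      exact ⟨1, by rw [pow_one, ← map_pow, hSmem u c k hu hcc, map_one]⟩) htclo hpS
  obtain ⟨L, hLp, hLK, hLn, hLmem⟩ := lift_p (pi hF 4) (p := p) (by
      intro x hx g
      obtain ⟨a, ha⟩ := (pi_eq_one_iff hF (by norm_num) _).1 hx
      apply Subtype.ext
      apply LinearEquiv.ext
      intro v
      rw [Subgroup.coe_mul, Subgroup.coe_mul, LinearEquiv.mul_apply, LinearEquiv.mul_apply, ha, ha, map_smul])
    (by
      intro x hx n hn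
      obtain ⟨a, ha⟩ := (pi_eq_one_iff hF (by norm_num) _).1 hx
      have h1 : ∀ (n : ℕ) (v : Fin 4 → F), (x ^ n).1 v = a ^ n • v := by
        intro n
        induction n with
        | zero => intro v; rw [pow_zero, pow_zero, one_smul]; rfl
        | succ n ih => intro v; rw [pow_succ, Subgroup.coe_mul, LinearEquiv.mul_apply, ih, ha, smul_smul, pow_succ]
      have h3 := h1 (p ^ n) e
      rw [hn] at h3
      have h4 : (a ^ (p ^ n) - 1) • e = 0 := by
        rw [sub_smul, one_smul, ← h3]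
        exact sub_self e
      have h5 : a ^ (p ^ n) - 1 = 0 := (smul_eq_zero.1 h4).resolve_right (ne_of e f hef).1
      have h6 : (a - 1) ^ (p ^ n) = 0 := by rw [sub_pow_char_pow, one_pow, h5]
      have h7 : a = 1 := sub_eq_zero.1 (pow_eq_zero_iff (pow_ne_zero n hpp.ne_zero) |>.1 h6)
      apply Subtype.ext
      apply LinearEquiv.ext
      intro v
      rw [ha, h7, one_smul]
      rfl)
    hKp (by intro k _; exact pi_surjective hF 4 k)
  have hL'1 : L.map (SIso (formB hF 4)).subtype ≠ ⊥ := by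
    intro h1
    apply hK1
    rw [← hLK, (Subgroup.map_eq_bot_iff_of_injective _ (SIso (formB hF 4)).subtype_injective).1 h1, Subgroup.map_bot]
  obtain ⟨b, hbP, hb0, hbb, hHb, hLb⟩ := geo hB hV hp0 hPk.le hP hO (L := L.map (SIso (formB hF 4)).subtype)
    (by rintro _ ⟨x, -, rfl⟩; exact x.2) (hLp.map _) hL'1 (by
      rintro g hg _ ⟨x, hx, rfl⟩
      have hgS := hPk.le hg
      have hgA : pi hF 4 ⟨g, hgS⟩ ∈ A := (mem_HA hF A ⟨g, hgS⟩).1 hg
      exact ⟨⟨g, hgS⟩ * x * (⟨g, hgS⟩ : SIso (formB hF 4))⁻¹, hLn _ (fun k hk => hKn _ hgA k hk) x hx, rfl⟩)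
  have hLQ : L ≤ Qb (formB hF 4) b := fun x hx => hLb x.1 ⟨x, hx, rfl⟩
  have hAb : ∀ g : SIso (formB hF 4), pi hF 4 g ∈ A → ∃ c : F, g.1 b = c • b := fun g hg =>
    hHb g.1 ((mem_HA hF A g).2 hg)
  have hQA : ∀ x ∈ Qb (formB hF 4) b, pi hF 4 x ∈ A → x ∈ L := by
    intro x hx hxA
    have hN : (Qb (formB hF 4) b ⊓ A.comap (pi hF 4)).map (pi hF 4) ≤ K := by
      apply hKmax
      · rintro _ ⟨y, hy, rfl⟩
        exact hy.2
      · rintro ⟨_, y, hy, rfl⟩
        refine ⟨1, Subtype.ext ?_⟩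
        rw [pow_one, Subgroup.coe_pow]
        change pi hF 4 y ^ p = 1
        rw [← map_pow, Qb_p hB hp0 hpodd hpp hy.1, map_one]
      · rintro a ha _ ⟨y, hy, rfl⟩
        obtain ⟨a1, rfl⟩ := pi_surjective hF 4 a
        obtain ⟨c, hc⟩ := hAb a1 ha
        refine ⟨a1 * y * a1⁻¹, ⟨Qb_conj hB hb0 hc hy.1, ?_⟩, by rw [map_mul, map_mul, map_inv]⟩
        change pi hF 4 (a1 * y * a1⁻¹) ∈ A
        rw [map_mul, map_mul, map_inv]
        exact A.mul_mem (A.mul_mem ha hy.2) (A.inv_mem ha)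
    exact hLmem x (hN ⟨x, ⟨hx, hxA⟩, rfl⟩) ⟨1, by rw [pow_one, Qb_p hB hp0 hpodd hpp hx]⟩
  have hKL : ∀ g : SIso (formB hF 4), (∀ y ∈ L, g * y * g⁻¹ ∈ L) → pi hF 4 g ∈ A := by
    intro g hg
    apply hKnorm
    intro k hk
    rw [← hLK] at hk ⊢
    obtain ⟨y, hy, rfl⟩ := hk
    exact ⟨g * y * g⁻¹, hg y hy, by rw [map_mul, map_mul, map_inv]⟩
  have hQL : Qb (formB hF 4) b ≤ L := by
    by_contra hcon
    have hQp : IsPGroup p (Qb (formB hF 4) b) := by
      rintro ⟨g, hg⟩
      exact ⟨1, Subtype.ext (by rw [pow_one]; exact Qb_p hB hp0 hpodd hpp hg)⟩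
    have hnil : Group.IsNilpotent (Qb (formB hF 4) b) := hQp.isNilpotent
    have hlt : L.subgroupOf (Qb (formB hF 4) b) < ⊤ := by
      rw [lt_top_iff_ne_top]
      intro h1
      apply hcon
      rwa [Subgroup.subgroupOf_eq_top] at h1
    obtain ⟨x, hx1, hx2⟩ := SetLike.exists_of_lt (Group.normalizerCondition_of_isNilpotent _ hlt)
    apply hx2
    rw [mem_subgroupOf]
    apply hQA x x.2
    apply hKL
    intro y hy
    have h1 := (mem_normalizer_iff.1 hx1 ⟨y, hLQ hy⟩).1 hy
    exact h1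
  have hstab : ∀ g : SIso (formB hF 4), (∃ c : F, g.1 b = c • b) → pi hF 4 g ∈ A := by
    rintro g ⟨c, hc⟩
    apply hKL
    intro y hy
    exact hQL (Qb_conj hB hb0 hc (hLQ hy))
  -- the index
  have hidx : A.index ≤ Nat.card (IPt (formB hF 4)) := by
    rw [← Subgroup.index_comap_of_surjective _ (pi_surjective hF 4)]
    have h1 : MulAction.stabilizer (SIso (formB hF 4)) (ipt hb0 hbb) ≤ A.comap (pi hF 4) := by
      intro g hg
      rw [MulAction.mem_stabilizer_iff, smul_ipt_eq_iff] at hg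
      exact hstab g hg
    have h3 := Nat.le_of_dvd (Nat.pos_of_ne_zero Subgroup.index_ne_zero_of_finite) (Subgroup.index_dvd_of_le h1)
    refine h3.trans ?_
    rw [MulAction.index_stabilizer]
    refine (Set.ncard_le_ncard (Set.subset_univ _) (Set.toFinite _)).trans ?_
    rw [Set.ncard_univ]
  have hcard := card_IPt hF hB
  rw [hV, (isoNum_eq q 4).1 (by decide)] at hcard
  -- the transvections with centre `c0`
  obtain ⟨c0, hc0P, hc00, hbc⟩ : ∃ c0 ∈ pp (formB hF 4) P, formB hF 4 c0 c0 = 0 ∧ formB hF 4 c0 b ≠ 0 := by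
    by_contra hcon
    push Not at hcon
    have h1 := hcon e' he' hee'
    have h3 := hcon f' hf' hff'
    apply hb0
    rw [np_basis hB hPp he' hf' hee' hff' hef' hbP, h1, h3, zero_smul, zero_smul, add_zero]
  set RT : Subgroup (SIso (formB hF 4)) := RTv hc00 with hRT
  have hRTt : RT.map (pi hF 4) ≤ centralizer ({pi hF 4 tT} : Set (PSU 4 F q)) := by
    rintro _ ⟨u, ⟨k, hk⟩, rfl⟩
    rw [mem_centralizer_iff]
    intro z hz
    rw [Set.mem_singleton_iff.1 hz, ← map_mul, ← map_mul]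
    congr 1
    apply Subtype.ext
    apply LinearEquiv.ext
    intro x
    change t (u.1 x) = u.1 (t x)
    rw [hk, hk, map_add, map_smul, ht.2 c0 hc0P]
    have h1 := htS.2 c0 x
    rw [ht.2 c0 hc0P] at h1
    rw [h1]
  have hRTc : q ≤ Nat.card RT := card_RTv hF hB hc00 (by
    rintro rfl
    rw [map_zero, LinearMap.zero_apply] at hbc
    exact hbc rfl)
  have hRTr : A.relIndex (RT.map (pi hF 4)) = Nat.card RT := by
    rw [← Subgroup.relIndex_comap, ← Subgroup.inf_relIndex_right]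
    have h1 : A.comap (pi hF 4) ⊓ RT = ⊥ := by
      rw [Subgroup.eq_bot_iff_forall]
      rintro u ⟨huA, k, hk⟩
      obtain ⟨c, hc⟩ := hAb u huA
      have h3 : k = 0 := by
        have h4 := hk b
        rw [hc] at h4
        have h5 : formB hF 4 c0 (c • b) = formB hF 4 c0 b := by
          rw [h4, map_add, map_smul, hc00, smul_zero, add_zero]
        rw [map_smul, smul_eq_mul] at h5
        have h6 : c = 1 := mul_right_cancel₀ hbc (by rw [h5, one_mul])
        rw [h6, one_smul, left_eq_add, smul_eq_zero] at h4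
        rcases h4 with h4 | h4
        · exact (mul_eq_zero.1 h4).resolve_right hbc
        · rw [h4, map_zero, LinearMap.zero_apply] at hbc
          exact absurd rfl hbc
      apply Subtype.ext
      apply LinearEquiv.ext
      intro x
      rw [hk x, h3, zero_mul, zero_smul, add_zero]
      rfl
    rw [h1, Subgroup.relIndex_bot_left]
  have hna : ∃ a b : PSU 4 F q, a * b ≠ b * a := by
    by_contra hcon
    push Not at hcon
    have hn : A.Normal := ⟨fun a ha g => by rw [hcon g a, mul_inv_cancel_right]; exact ha⟩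
    rcases hn.eq_bot_or_eq_top with h1 | h1
    · exact h.ne_bot h1
    · exact h.ne_top h1
  have hfin6 := ((Cfsg.Agent.H999.IFB.IF.E2' h hna htA ht2).2.2.2.2 _ hRTt).2
  rw [hRTr] at hfin6
  have hq6 : q ^ 6 ≤ Nat.card RT ^ 6 := Nat.pow_le_pow_left hRTc 6
  have h7 : q ^ 6 < Nat.card (IPt (formB hF 4)) := lt_of_le_of_lt hq6 (lt_of_lt_of_le hfin6 hidx)
  have hq1 : 1 < q := by
    by_contra hcon
    have h1 : 1 < Fintype.card F := Fintype.one_lt_card
    rw [hF] at h1
    interval_cases q <;> omega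
  obtain ⟨r, rfl⟩ : ∃ r, q = r + 2 := ⟨q - 2, by omega⟩
  have h8 : (r + 2) ^ 4 - 1 = ((r + 2) ^ 2 - 1) * ((r + 2) ^ 2 + 1) := by
    have h9 : (r + 2) ^ 2 - 1 = r ^ 2 + 4 * r + 3 := by
      have : (r + 2) ^ 2 = r ^ 2 + 4 * r + 4 := by ring
      omega
    have h10 : (r + 2) ^ 4 = (r ^ 2 + 4 * r + 3) * ((r + 2) ^ 2 + 1) + 1 := by ring
    rw [h9, h10, Nat.add_sub_cancel]
  rw [h8] at hcard
  have h9 : Nat.card (IPt (formB hF 4)) = ((r + 2) ^ 2 + 1) * ((r + 2) ^ 3 + 1) := by
    have h10 : 0 < (r + 2) ^ 2 - 1 := by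
      have : (r + 2) ^ 2 = r ^ 2 + 4 * r + 4 := by ring
      omega
    apply Nat.eq_of_mul_eq_mul_right h10
    rw [hcard]
    ring
  rw [h9] at h7
  have h11 : ((r + 2) ^ 2 + 1) * ((r + 2) ^ 3 + 1) ≤ (r + 2) ^ 6 := by
    nlinarith [pow_pos (show 0 < r + 2 by omega) 3, pow_pos (show 0 < r + 2 by omega) 2, Nat.zero_le r,
      Nat.zero_le (r ^ 2), Nat.zero_le (r ^ 3), Nat.zero_le (r ^ 4), Nat.zero_le (r ^ 5), Nat.zero_le (r ^ 6)]
  omega

/-- **W7**: the rank one case -/
theorem rank_one (hF : Fintype.card F = q ^ 2) [hs : IsSimpleGroup (PSU 4 F q)] {A : Subgroup (PSU 4 F q)}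
    {Γ : Subgroup (MulAut (PSU 4 F q))} (h : IF A Γ) (hq : Odd q) (hC : StepC (formB hF 4) (HA hF A))
    (hno : ∀ s ∈ A, ∀ t ∈ A, orderOf s = 2 → orderOf t = 2 → s * t = t * s → s = t)
    {P : Submodule F (Fin 4 → F)} (hP : NP (formB hF 4) P)
    {t : (Fin 4 → F) ≃ₗ[F] (Fin 4 → F)} (ht : Neg (formB hF 4) t P) (htH : t ∈ HA hF A) : False := by
  have hB := hform hF 4
  have hV : finrank F (Fin 4 → F) = 4 := by rw [finrank_fin_fun]
  have hPk := Cfsg.Agent.H847.IF.pk_of_IF hF h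
  rcases hC P t hP ht htH with hO | hO
  · exact rank_one_on hF h hq hno hP hO ht htH
  · let ν : (Fin 4 → F) ≃ₗ[F] (Fin 4 → F) := LinearEquiv.neg F
    have hν : ∀ v, ν v = -v := fun v => rfl
    have hνS : ν ∈ SIso (formB hF 4) := by
      refine ⟨?_, fun x y => ?_⟩
      · apply Units.ext
        rw [LinearEquiv.coe_det, Units.val_one]
        have h1 : (ν : (Fin 4 → F) →ₗ[F] (Fin 4 → F)) = (-1 : F) • LinearMap.id := by
          apply LinearMap.ext
          intro v
          change -v = (-1 : F) • v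
          rw [neg_one_smul]
        rw [h1, LinearMap.det_smul, hV, LinearMap.det_id]
        ring
      · rw [hν, hν, map_neg, map_neg, LinearMap.neg_apply, neg_neg]
    have hνH : ν ∈ HA hF A := hPk.sc ν hνS ⟨-1, fun v => by rw [hν, neg_one_smul]⟩
    refine rank_one_on hF h hq hno (np_pp hB hV hP) hO (t := ν * t) ⟨?_, ?_⟩ (mul_mem hνH htH)
    · intro x hx
      rw [LinearEquiv.mul_apply, ht.2 x hx, hν]
    · intro u hu
      rw [LinearEquiv.mul_apply, ht.1 u (pp_pp hB hV hP hu), hν, neg_neg]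

end

end Cfsg.Agent.H838.IF
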