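import Cfsg.Agent.H838.IF.Defs
import Cfsg.Agent.H838.IF.LiftP

/-!
# S5719, `PSU_4(q)`, rank one case: geometry (helper838)

`geo` : a `p`-group `L ≠ 1` normalised by a group containing the transvections of a nondegenerate plane `P` lies in the
unipotent radical `Qb` of the stabiliser of an isotropic point `⟨b⟩` orthogonal to `P`.
-/

set_option autoImplicit false
set_option linter.unusedSectionVars false

namespace Cfsg.Agent.H838.IF

open Module Subgroup Cfsg Cfsg.Agent.H91.U Cfsg.Agent.H450.UF Cfsg.Agent.H450.Bs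

section

variable {F V : Type*} [Field F] [Finite F] [AddCommGroup V] [Module F V] [FiniteDimensional F V] {σ : F →+* F}
  {B : V →ₛₗ[σ] V →ₗ[F] F} {H : Subgroup (V ≃ₗ[F] V)}

theorem np_scalar (hB : HForm B) {P : Submodule F V} (hP : NP B P) {x y : V} (hx : x ∈ P) (hx0 : x ≠ 0)
    (hxx : B x x = 0) (hy : y ∈ P) (hxy : B x y = 0) : ∃ a : F, y = a • x := by
  by_contra hcon
  have hcon' : y ∉ Submodule.span F {x} := by
    intro h1
    obtain ⟨a, ha⟩ := Submodule.mem_span_singleton.1 h1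
    exact hcon ⟨a, ha.symm⟩
  have hli : LinearIndependent F ![x, y] := by
    rw [LinearIndependent.pair_iff' hx0]
    intro a ha
    exact hcon' (Submodule.mem_span_singleton.2 ⟨a, ha⟩)
  have h1 : Submodule.span F (Set.range ![x, y]) ≤ P := by
    rw [Submodule.span_le]
    rintro _ ⟨i, rfl⟩
    fin_cases i
    · exact hx
    · exact hy
  have h2 : finrank F (Submodule.span F (Set.range ![x, y])) = 2 := by
    rw [finrank_span_eq_card hli, Fintype.card_fin]
  have h3 : Submodule.span F (Set.range ![x, y]) = P :=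
    Submodule.eq_of_le_of_finrank_eq h1 (by rw [h2, hP.dim])
  apply hx0
  apply hP.nd x hx
  intro z hz
  rw [← h3] at hz
  induction hz using Submodule.span_induction with
  | mem z hz =>
    obtain ⟨i, rfl⟩ := hz
    fin_cases i
    · exact hxx
    · exact hxy
  | zero => rw [map_zero]
  | add a b _ _ h4 h5 => rw [map_add, h4, h5, add_zero]
  | smul c a _ h4 => rw [map_smul, h4, smul_zero]

theorem np_pp (hB : HForm B) (hV : finrank F V = 4) {P : Submodule F V} (hP : NP B P) : NP B (pp B P) := by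
  refine ⟨?_, ?_⟩
  · have h1 := finrank_pp hB P
    rw [hP.dim, hV] at h1
    omega
  · intro x hx h1
    apply hB.eq_zero
    intro y
    obtain ⟨a, ha, b, hb, rfl⟩ := exists_decomp hB hP.nd y
    rw [map_add, mem_pp.1 hx a ha, zero_add]
    exact h1 b (mem_pp.2 fun z hz => hB.swap_zero (hb z hz))

/-- `P` is spanned by a hyperbolic pair -/
theorem np_basis (hB : HForm B) {P : Submodule F V} (hP : NP B P) {e f : V} (he : e ∈ P) (hf : f ∈ P)
    (hee : B e e = 0) (hff : B f f = 0) (hef : B e f = 1) {x : V} (hx : x ∈ P) : x = B f x • e + B e x • f := by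
  have he0 : e ≠ 0 := by
    rintro rfl
    rw [map_zero, LinearMap.zero_apply] at hef
    exact zero_ne_one hef
  have hfe : B f e = 1 := by rw [sw hB e f, hef, map_one]
  have hz : x - B f x • e - B e x • f ∈ P := sub_mem (sub_mem hx (P.smul_mem _ he)) (P.smul_mem _ hf)
  obtain ⟨a, ha⟩ := np_scalar hB hP he he0 hee hz (by
    rw [map_sub, map_sub, map_smul, map_smul, hee, hef]
    simp)
  have h1 : B f (x - B f x • e - B e x • f) = 0 := by
    rw [map_sub, map_sub, map_smul, map_smul, hfe, hff]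
    simp
  rw [ha, map_smul, hfe, smul_eq_mul, mul_one] at h1
  rw [h1, zero_smul, sub_sub, sub_eq_zero] at ha
  exact ha

theorem tv_mem (hB : HForm B) {X : Submodule F V} (hX : ∀ h ∈ H, ∀ x ∈ X, h x ∈ X) {c : V} (hc : B c c = 0)
    (hcc : PP B H c) {x : V} (hx : x ∈ X) (hcx : B c x ≠ 0) : c ∈ X := by
  obtain ⟨l, hl0, hl⟩ := exists_trz hB
  obtain ⟨g, hg⟩ := exists_tv hc l
  have h1 := sub_mem (hX g (hcc l hl g hg) x hx) hx
  rw [hg, add_sub_cancel_left] at h1
  have h2 := X.smul_mem (l * B c x)⁻¹ h1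
  rwa [smul_smul, inv_mul_cancel₀ (mul_ne_zero hl0 hcx), one_smul] at h2

theorem plane_le (hB : HForm B) {P : Submodule F V} (hP : NP B P) (hO : On B H P) {X : Submodule F V}
    (hX : ∀ h ∈ H, ∀ x ∈ X, h x ∈ X) {v v1 v2 : V} (hv : v ∈ X) (h1 : v1 ∈ P) (h2 : ∀ w ∈ P, B w v2 = 0)
    (hvv : v = v1 + v2) (h0 : v1 ≠ 0) : P ≤ X := by
  obtain ⟨e, he, f, hf, hee, hff, hef⟩ := exists_hyp hB hP.nd hP.dim.ge
  have hfe : B f e = 1 := by rw [sw hB e f, hef, map_one]
  have he0 : e ≠ 0 := by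
    rintro rfl
    rw [map_zero, LinearMap.zero_apply] at hef
    exact zero_ne_one hef
  have hf0 : f ≠ 0 := by
    rintro rfl
    rw [map_zero] at hef
    exact zero_ne_one hef
  have hb := np_basis hB hP he hf hee hff hef h1
  have hevv : B e v = B e v1 := by rw [hvv, map_add, h2 e he, add_zero]
  have hfvv : B f v = B f v1 := by rw [hvv, map_add, h2 f hf, add_zero]
  have hef' : e ∈ X ∧ f ∈ X := by
    by_cases h3 : B e v1 = 0
    · have h4 : B f v1 ≠ 0 := by
        intro h4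
        apply h0
        rw [hb, h3, h4, zero_smul, zero_smul, add_zero]
      have h5 : f ∈ X := tv_mem hB hX hff (hO f hf hf0 hff) hv (by rw [hfvv]; exact h4)
      exact ⟨tv_mem hB hX hee (hO e he he0 hee) h5 (by rw [hef]; exact one_ne_zero), h5⟩
    · have h5 : e ∈ X := tv_mem hB hX hee (hO e he he0 hee) hv (by rw [hevv]; exact h3)
      exact ⟨h5, tv_mem hB hX hff (hO f hf hf0 hff) h5 (by rw [hfe]; exact one_ne_zero)⟩
  intro x hx
  rw [np_basis hB hP he hf hee hff hef hx]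
  exact add_mem (X.smul_mem _ hef'.1) (X.smul_mem _ hef'.2)

/-- **geometry of the rank one case** -/
theorem geo [Finite V] (hB : HForm B) (hV : finrank F V = 4) {p : ℕ} [Fact p.Prime] (hp : (p : F) = 0)
    (hH : H ≤ SIso B) {P : Submodule F V} (hP : NP B P) (hO : On B H P) {L : Subgroup (V ≃ₗ[F] V)}
    (hL : L ≤ SIso B) (hLp : IsPGroup p L) (hL1 : L ≠ ⊥) (hn : ∀ h ∈ H, ∀ k ∈ L, h * k * h⁻¹ ∈ L) :
    ∃ b ∈ pp B P, b ≠ 0 ∧ B b b = 0 ∧ (∀ h ∈ H, ∃ a : F, h b = a • b) ∧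
      ∀ k ∈ L, k b = b ∧ ∀ x, B b x = 0 → ∃ a : F, k x = x + a • b := by
  obtain ⟨e, he, f, hf, hee, hff, hef⟩ := exists_hyp hB hP.nd hP.dim.ge
  have hfe : B f e = 1 := by rw [sw hB e f, hef, map_one]
  have hn' : ∀ h ∈ H, ∀ k ∈ L, h⁻¹ * k * h ∈ L := by
    intro h hh k hk
    have := hn h⁻¹ (H.inv_mem hh) k hk
    rwa [inv_inv] at this
  have hkh : ∀ (h k : V ≃ₗ[F] V) (v : V), k (h v) = h ((h⁻¹ * k * h) v) := by
    intro h k v
    change k (h v) = h (h.symm (k (h v)))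
    rw [LinearEquiv.apply_symm_apply]
  -- the fixed space
  let W : Submodule F V :=
    { carrier := {v | ∀ k ∈ L, k v = v}
      add_mem' := fun {a b} ha hb k hk => by rw [map_add, ha k hk, hb k hk]
      zero_mem' := fun k _ => map_zero k
      smul_mem' := fun c a ha k hk => by rw [map_smul, ha k hk] }
  have hWH : ∀ h ∈ H, ∀ w ∈ W, h w ∈ W := by
    intro h hh w hw k hk
    rw [hkh h k w, hw _ (hn' h hh k hk)]
  have hWtop : W ≠ ⊤ := by
    intro h1
    apply hL1
    rw [Subgroup.eq_bot_iff_forall]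
    intro k hk
    apply LinearEquiv.ext
    intro v
    have h2 : v ∈ W := by rw [h1]; trivial
    exact h2 k hk
  have hppH : ∀ (X : Submodule F V) (G : Subgroup (V ≃ₗ[F] V)), G ≤ SIso B → (∀ h ∈ G, ∀ x ∈ X, h x ∈ X) →
      ∀ h ∈ G, ∀ x ∈ pp B X, h x ∈ pp B X := by
    intro X G hG hX h hh x hx
    rw [mem_pp]
    intro z hz
    have h1 := hX h⁻¹ (G.inv_mem hh) z hz
    have h2 := mem_pp.1 hx _ h1
    rw [← (hG hh).2] at h2
    have h3 : h (h⁻¹ z) = z := by
      change h (h.symm z) = z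
      rw [LinearEquiv.apply_symm_apply]
    rwa [h3] at h2
  have hWL : ∀ k ∈ L, ∀ w ∈ W, k w ∈ W := by
    intro k hk w hw
    rw [hw k hk]
    exact hw
  have hppne : (⊥ : Submodule F V) < pp B W := by
    rw [bot_lt_iff_ne_bot]
    intro h1
    have h2 := finrank_pp hB W
    rw [h1, finrank_bot, zero_add] at h2
    exact hWtop (Submodule.eq_top_of_finrank_eq h2)
  obtain ⟨b, hb1, hb0, hb2⟩ := exists_fixed_mod hp hLp hppne (hppH W L hL hWL) (by
    intro g _ y hy
    rw [Submodule.mem_bot] at hy ⊢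
    rw [hy, map_zero])
  have hb0' : b ≠ 0 := fun h1 => hb0 (by rw [h1]; exact zero_mem _)
  have hbW : b ∈ W := by
    intro k hk
    have h1 := hb2 k hk
    rw [Submodule.mem_bot, sub_eq_zero] at h1
    exact h1
  let R : Submodule F V := W ⊓ pp B W
  have hRH : ∀ h ∈ H, ∀ x ∈ R, h x ∈ R := fun h hh x hx => ⟨hWH h hh x hx.1, hppH W H hH hWH h hh x hx.2⟩
  have hPR : ¬ P ≤ R := by
    intro h1
    have h2 := mem_pp.1 (h1 hf).2 e (h1 he).1
    rw [hfe] at h2
    exact one_ne_zero h2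
  have hRpp : ∀ x ∈ R, x ∈ pp B P := by
    intro x hx
    obtain ⟨x1, hx1, x2, hx2, hxx⟩ := exists_decomp hB hP.nd x
    by_cases h1 : x1 = 0
    · rw [hxx, h1, zero_add, mem_pp]
      intro z hz
      exact hB.swap_zero (hx2 z hz)
    · exact absurd (plane_le hB hP hO hRH hx hx1 hx2 hxx h1) hPR
  have hbR : b ∈ R := ⟨hbW, hb1⟩
  have hbP : b ∈ pp B P := hRpp b hbR
  have hbb : B b b = 0 := mem_pp.1 hb1 b hbW
  have hPp := np_pp hB hV hP
  have hHb : ∀ h ∈ H, ∃ a : F, h b = a • b := by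
    intro h hh
    have h1 := hRH h hh b hbR
    exact np_scalar hB hPp hbP hb0' hbb (hRpp _ h1) (mem_pp.1 hb1 _ h1.1)
  refine ⟨b, hbP, hb0', hbb, hHb, ?_⟩
  -- the quotient
  let X : Submodule F V := LinearMap.ker (B b)
  have hXm : ∀ x, x ∈ X ↔ B b x = 0 := fun x => LinearMap.mem_ker
  let Y : Submodule F V := Submodule.span F {b}
  have hYL : ∀ g ∈ L, ∀ y ∈ Y, g y ∈ Y := by
    intro g hg y hy
    obtain ⟨a, rfl⟩ := Submodule.mem_span_singleton.1 hy
    rw [map_smul, hbW g hg]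
    exact hy
  have hXL : ∀ g ∈ L, ∀ x ∈ X, g x ∈ X := by
    intro g hg x hx
    rw [hXm] at hx ⊢
    have h1 := (hL hg).2 b x
    rw [hbW g hg, hx] at h1
    exact h1
  have hPX : ∀ x ∈ P, x ∈ X := fun x hx => (hXm x).2 (mem_pp.1 hbP x hx)
  have hYX : Y < X := by
    refine lt_of_le_of_ne ?_ ?_
    · rw [Submodule.span_le, Set.singleton_subset_iff]
      exact (hXm b).2 hbb
    · intro h1
      have h2 : e ∈ Y := by rw [h1]; exact hPX e he
      obtain ⟨a, ha⟩ := Submodule.mem_span_singleton.1 h2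
      have h3 : B f e = 0 := by
        rw [← ha, map_smul, hB.swap_zero (mem_pp.1 hbP f hf), smul_zero]
      rw [hfe] at h3
      exact one_ne_zero h3
  obtain ⟨x, hx1, hx2, hx3⟩ := exists_fixed_mod hp hLp hYX hXL hYL
  let X1 : Submodule F V :=
    { carrier := {x | x ∈ X ∧ ∀ k ∈ L, k x - x ∈ Y}
      add_mem' := fun {a c} ha hc => ⟨add_mem ha.1 hc.1, fun k hk => by
        rw [map_add, add_sub_add_comm]
        exact add_mem (ha.2 k hk) (hc.2 k hk)⟩
      zero_mem' := ⟨zero_mem _, fun k _ => by rw [map_zero, sub_zero]; exact zero_mem _⟩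
      smul_mem' := fun c a ha => ⟨X.smul_mem c ha.1, fun k hk => by
        rw [map_smul, ← smul_sub]
        exact Y.smul_mem c (ha.2 k hk)⟩ }
  have hYH : ∀ h ∈ H, ∀ y ∈ Y, h y ∈ Y := by
    intro h hh y hy
    obtain ⟨a, rfl⟩ := Submodule.mem_span_singleton.1 hy
    obtain ⟨c, hc⟩ := hHb h hh
    rw [map_smul, hc]
    exact Y.smul_mem _ (Y.smul_mem _ (Submodule.mem_span_singleton_self b))
  have hX1H : ∀ h ∈ H, ∀ x ∈ X1, h x ∈ X1 := by
    intro h hh x hx
    refine ⟨?_, fun k hk => ?_⟩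
    · rw [hXm]
      obtain ⟨c, hc⟩ := hHb h⁻¹ (H.inv_mem hh)
      have h1 := (hH hh).2 (h⁻¹ b) x
      have h2 : h (h⁻¹ b) = b := by
        change h (h.symm b) = b
        rw [LinearEquiv.apply_symm_apply]
      rw [h2, hc, smul_left, (hXm x).1 hx.1, mul_zero] at h1
      exact h1
    · rw [hkh h k x, ← map_sub]
      exact hYH h hh _ (hx.2 _ (hn' h hh k hk))
  have hbX1 : b ∈ X1 := ⟨(hXm b).2 hbb, fun k hk => by rw [hbW k hk, sub_self]; exact zero_mem _⟩
  have hdec : ∀ x ∈ X, ∃ x1 ∈ P, ∃ a : F, x = x1 + a • b := by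
    intro x hx
    obtain ⟨x1, hx1, x2, hx2, hxx⟩ := exists_decomp hB hP.nd x
    have h1 : B b x2 = 0 := by
      have h2 := (hXm x).1 hx
      rwa [hxx, map_add, mem_pp.1 hbP x1 hx1, zero_add] at h2
    obtain ⟨a, ha⟩ := np_scalar hB hPp hbP hb0' hbb (mem_pp.2 fun z hz => hB.swap_zero (hx2 z hz)) h1
    exact ⟨x1, hx1, a, by rw [hxx, ha]⟩
  obtain ⟨x1, hx1', a, hxa⟩ := hdec x hx1
  have hPX1 : P ≤ X1 := by
    refine plane_le hB hP hO hX1H (v := x) (v1 := x1) (v2 := a • b) ⟨hx1, hx3⟩ hx1' ?_ hxa ?_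
    · intro w hw
      rw [map_smul, hB.swap_zero (mem_pp.1 hbP w hw), smul_zero]
    · intro h1
      apply hx2
      rw [hxa, h1, zero_add]
      exact Y.smul_mem _ (Submodule.mem_span_singleton_self b)
  intro k hk
  refine ⟨hbW k hk, fun y hy => ?_⟩
  obtain ⟨y1, hy1, c, hyc⟩ := hdec y ((hXm y).2 hy)
  have h1 : y ∈ X1 := by
    rw [hyc]
    exact add_mem (hPX1 hy1) (X1.smul_mem c hbX1)
  obtain ⟨d, hd⟩ := Submodule.mem_span_singleton.1 (h1.2 k hk)
  exact ⟨d, by rw [hd, add_sub_cancel]⟩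

end

end Cfsg.Agent.H838.IF
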